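import Cfsg.Agent.Lib.InvCentralizers.ChevInvolution.Count
import Cfsg.Agent.Lib.Chevalley.Homocyclic.Fusion

/-!
In the centraliser of a torus element of a Chevalley group over a field with `q ≡ 1` modulo a
prime `r` not dividing the order of the Weyl group, the diagonal subgroup has index prime to `r`.
-/

set_option autoImplicit false
set_option linter.unusedSectionVars false

namespace CfsgLib.Chevalley.F4Prime

open Cfsg.Lie Homocyclic CfsgLib.InvCentralizers.ChevInvolution

variable {D : ChevalleyDatum} {A : Aux} {F : Type*} [Field F]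

open Classical in
/-- The Weyl permutations fixing a torus element. -/
noncomputable def stabW (h : Full D A) (c : Fin D.rank → Fˣ) : Finset (Equiv.Perm (Fin D.nroots)) :=
  (wSet h.cert D.rank).filter fun σ => ∀ s : Fin D.nroots, chi D (σ s) c = chi D s c

theorem not_dvd_card_stabW (h : Full D A) (c : Fin D.rank → Fˣ) {r : ℕ} [Fact r.Prime]
    (hrW : ¬ r ∣ (wSet h.cert D.rank).card) : ¬ r ∣ (stabW h c).card := by
  classical
  intro hdvd
  have hmul : ∀ {a b : Equiv.Perm (Fin D.nroots)}, a ∈ stabW h c → b ∈ stabW h c →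
      a * b ∈ stabW h c := by
    intro a b ha hb
    simp only [stabW, Finset.mem_filter] at ha hb ⊢
    exact ⟨wSet_mul h ha.1 hb.1, fun s => by rw [Equiv.Perm.mul_apply, ha.2, hb.2]⟩
  have hone : (1 : Equiv.Perm (Fin D.nroots)) ∈ stabW h c := by
    simp only [stabW, Finset.mem_filter]
    exact ⟨by simpa using mem_wSet_rank h.cert [], fun s => by simp⟩
  have hpow : ∀ (x : Equiv.Perm (Fin D.nroots)), x ∈ stabW h c → ∀ k, x ^ k ∈ stabW h c := by
    intro x hx k
    induction k with
    | zero => simpa using hone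
    | succ k ih => rw [pow_succ]; exact hmul ih hx
  let W : Subgroup (Equiv.Perm (Fin D.nroots)) :=
    { carrier := stabW h c
      one_mem' := hone
      mul_mem' := fun ha hb => hmul ha hb
      inv_mem' := fun {x} hx => by
        rw [Finset.mem_coe] at hx ⊢
        obtain ⟨k, hk⟩ : x⁻¹ ∈ Submonoid.powers x :=
          mem_powers_iff_mem_zpowers.2 ((Subgroup.zpowers x).inv_mem (Subgroup.mem_zpowers x))
        rw [← hk]; exact hpow x hx k }
  have hW : Nat.card W = (stabW h c).card := Nat.card_eq_finsetCard (stabW h c)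
  obtain ⟨⟨x, hx⟩, hxo⟩ := exists_prime_orderOf_dvd_card' (G := W) r (hW ▸ hdvd)
  refine hrW ?_
  rw [← hxo, Subgroup.orderOf_mk]
  have hx' : x ∈ stabW h c := hx
  exact orderOf_dvd_card h (Finset.mem_filter.1 hx').1

theorem exists_fixed_coset' {G : Type*} [Group G] [Finite G] {H : Subgroup G} {r k : ℕ}
    [Fact r.Prime] {y : G} (hy : y ^ r ^ k = 1) (hH : ¬ r ∣ H.index) :
    ∃ c : G, c * y * c⁻¹ ∈ H := by
  have hP : IsPGroup r (Subgroup.zpowers y) := by
    obtain ⟨j, -, hj⟩ := (Nat.dvd_prime_pow Fact.out).1 (orderOf_dvd_of_pow_eq_one hy)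
    exact IsPGroup.of_card (by rw [Nat.card_zpowers, hj])
  obtain ⟨a, ha⟩ := hP.nonempty_fixed_point_of_prime_not_dvd_card (G ⧸ H) hH
  induction a using QuotientGroup.induction_on with
  | H c =>
    refine ⟨c⁻¹, ?_⟩
    have e := ha ⟨y, Subgroup.mem_zpowers y⟩
    change ((y * c : G) : G ⧸ H) = (c : G ⧸ H) at e
    rw [eq_comm, QuotientGroup.eq] at e
    rw [inv_inv, mul_assoc]
    exact e

/-- An `r`-element commuting with a torus element moves into the torus inside its centraliser. -/
theorem exists_conj_torus_of_commute [Fintype F] (h : Full D A) (c : Fin D.rank → Fˣ) {r k : ℕ}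
    [Fact r.Prime] (hF : (Fintype.card F : ZMod r) = 1) (hrW : ¬ r ∣ (wSet h.cert D.rank).card)
    (y : D.group F) (hy : y ^ r ^ k = 1) (hc : Commute (torusHom D F c) (y : GL D.Idx F)) :
    ∃ g : D.group F, Commute (torusHom D F c) (g : GL D.Idx F) ∧
      ∃ c', (g : GL D.Idx F) * y * (g : GL D.Idx F)⁻¹ = torusHom D F c' := by
  classical
  haveI : Finite (GL D.Idx F) := inferInstance
  have ht : torusHom D F c ∈ D.group F := diagonal_le_group h.cert (torus_mem_diagonal h c)
  have hl : ∀ w : stabW h c, ∃ l, wPerm h.cert l = (w : Equiv.Perm _) := fun w => by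
    obtain ⟨l, -, e⟩ := mem_wSet.1 (Finset.mem_filter.1 w.2).1; exact ⟨l, e⟩
  choose l hl using hl
  have hact : ∀ (w : stabW h c), ∀ t ∈ D.diagonalSubgroup F,
      ∃ η, Acts h.cert (nW h.cert F (l w) * t) (w : Equiv.Perm _) η := by
    intro w t ht
    rw [diagonalSubgroup_eq_range h] at ht
    obtain ⟨c, rfl⟩ := ht
    obtain ⟨η, hη⟩ := acts_nW (F := F) h (l w)
    have h1 := hη.mul (acts_torus h.cert c)
    rw [mul_one, hl w] at h1
    exact ⟨_, h1⟩
  have hmem : ∀ (w : stabW h c), ∀ t ∈ D.diagonalSubgroup F,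
      nW h.cert F (l w) * t ∈ D.monomialSubgroup F := fun w t ht =>
    mul_mem (nW_mem_monomial h _) (diagonal_le_monomial ht)
  let U := rootsU D F {r | D.IsPosRoot r ∧ chi D r c = 1}
  let T := Subgroup.centralizer ({⟨torusHom D F c, ht⟩} : Set (D.group F))
  have hin : ∀ (w : stabW h c) (u : U) (t : D.diagonalSubgroup F)
      (v : rootsU D F {r | r ∈ invSet D (w : Equiv.Perm _) ∧ chi D r c = 1}),
      Commute (torusHom D F c) ((u : GL D.Idx F) * (nW h.cert F (l w) * t) * v) := by
    intro w u t v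
    obtain ⟨η, hA⟩ := hact w t t.2
    exact ((commute_rootsU h (fun r hr => hr.2) u.2).mul_right (commute_monomial h (hmem w t t.2) hA
      (Finset.mem_filter.1 w.2).2)).mul_right (commute_rootsU h (fun r hr => hr.2) v.2)
  let f : (Σ w : stabW h c, (U × D.diagonalSubgroup F) ×
      rootsU D F {r | r ∈ invSet D (w : Equiv.Perm _) ∧ chi D r c = 1}) → T := fun x =>
    ⟨⟨(x.2.1.1 : GL D.Idx F) * (nW h.cert F (l x.1) * x.2.1.2) * x.2.2,
      mul_mem (mul_mem (rootsU_le_group h.cert _ x.2.1.1.2)
        (monomial_le_group h.cert (hmem _ _ x.2.1.2.2)))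
        (rootsU_le_group h.cert _ x.2.2.2)⟩,
      Subgroup.mem_centralizer_singleton_iff.2 (Subtype.ext (hin x.1 x.2.1.1 x.2.1.2 x.2.2).eq.symm)⟩
  have hf : Function.Bijective f := by
    constructor
    · rintro ⟨w, ⟨u, t⟩, v⟩ ⟨w', ⟨u', t'⟩, v'⟩ e
      have e' : (u : GL D.Idx F) * (nW h.cert F (l w) * t) * v =
          (u' : GL D.Idx F) * (nW h.cert F (l w') * t') * v' :=
        congrArg (fun x : T => ((x : D.group F) : GL D.Idx F)) e
      obtain ⟨η, hA⟩ := hact w t t.2
      obtain ⟨η', hA'⟩ := hact w' t' t'.2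
      obtain ⟨e1, e2, e3⟩ := canonical_unique h
        (rootsU_mono (T := {r | D.IsPosRoot r}) (fun r hr => hr.1) u.2)
        (rootsU_mono (T := {r | D.IsPosRoot r}) (fun r hr => hr.1) u'.2)
        (hmem w t t.2) (hmem w' t' t'.2) hA hA'
        (rootsU_mono (fun r hr => hr.1) v.2) (rootsU_mono (fun r hr => hr.1) v'.2) e'
      have hw : w = w' := Subtype.ext (hA.perm_eq (e2 ▸ hA'))
      subst hw
      have htt : t = t' := Subtype.ext (mul_left_cancel e2)
      rw [Subtype.ext e1, htt, Subtype.ext e3]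
    · rintro ⟨⟨g, hg⟩, hgT⟩
      have hcg : Commute (torusHom D F c) g :=
        (congrArg Subtype.val (Subgroup.mem_centralizer_singleton_iff.1 hgT)).symm
      obtain ⟨u, hu, n, hn, σ, η, hA, v, hv, rfl⟩ := exists_canonical h hg
      set d := torusHom D F c with hd
      have hdH : d ∈ D.diagonalSubgroup F := torus_mem_diagonal h c
      obtain ⟨η', hA'⟩ : ∃ η', Acts h.cert (d * n * d⁻¹) σ η' := by
        have := ((acts_torus h.cert c).mul hA).mul (acts_torus h.cert c⁻¹)
        rw [map_inv, ← hd, mul_one, one_mul] at this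
        exact ⟨_, this⟩
      have hn' : d * n * d⁻¹ ∈ D.monomialSubgroup F :=
        mul_mem (mul_mem (diagonal_le_monomial hdH) hn) (inv_mem (diagonal_le_monomial hdH))
      obtain ⟨eu, en, ev⟩ := canonical_unique h (diagonal_conj_rootsU h _ d hdH u hu) hu hn' hn hA' hA
        (diagonal_conj_rootsU h _ d hdH v hv) hv
        (by rw [show d * u * d⁻¹ * (d * n * d⁻¹) * (d * v * d⁻¹) = d * (u * n * v) * d⁻¹ by group,
          hcg.eq, mul_inv_cancel_right])
      have hu2 : u ∈ U := mem_rootsU_of_commute h hu (mul_inv_eq_iff_eq_mul.1 eu)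
      set L := (List.range D.nroots).filter (fun r => decide (r ∈ invSet D σ)) with hL
      have hLset : {r | r ∈ L} = invSet D σ := by
        ext r
        simp only [hL, Set.mem_ofPred_eq, List.mem_filter, List.mem_range, decide_eq_true_eq,
          and_iff_right_iff_imp]
        exact fun hr => hr.1.1
      have hv2 : v ∈ rootsU D F {r | r ∈ invSet D σ ∧ chi D r c = 1} := by
        have := mem_rootsU_even h (L := L) (List.Pairwise.filter _ List.pairwise_lt_range)
          (hLset ▸ isClosed_invSet h hA) (hLset ▸ hv) (mul_inv_eq_iff_eq_mul.1 ev)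
        refine rootsU_mono (T := {r | r ∈ invSet D σ ∧ chi D r c = 1}) ?_ this
        exact fun r hr => ⟨(Set.ext_iff.1 hLset r).1 hr.1, hr.2⟩
      have hσc : ∀ s : Fin D.nroots, chi D (σ s) c = chi D s c := fun s => by
        have he := congrArg
          (fun g : GL D.Idx F => (g : Matrix D.Idx D.Idx F) (Sum.inr (σ s)) (Sum.inr s))
          (mul_inv_eq_iff_eq_mul.1 en)
        simp only [hd, Units.val_mul, coe_torusHom, Matrix.diagonal_mul, Matrix.mul_diagonal, hA.col,
          if_true, Sum.elim_inr] at he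
        rw [mul_comm] at he
        exact Units.ext (mul_left_cancel₀ (hA.ne_zero s) he)
      obtain ⟨l₀, t₀, ht₀, rfl⟩ := (mem_monomial_iff h).1 hn
      obtain ⟨c₀, rfl⟩ : ∃ c₀, torusHom D F c₀ = t₀ := by rwa [diagonalSubgroup_eq_range h] at ht₀
      obtain ⟨η₀, hη₀⟩ := acts_nW (F := F) h l₀
      have hσ := hA.perm_eq (hη₀.mul (acts_torus h.cert c₀))
      rw [mul_one] at hσ
      subst hσ
      let w : stabW h c :=
        ⟨_, Finset.mem_filter.2 ⟨mem_wSet_rank h.cert l₀, hσc⟩⟩
      set m := nW h.cert F (l w)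
      have hm : m⁻¹ * (nW h.cert F l₀ * torusHom D F c₀) ∈ D.diagonalSubgroup F := by
        have hmem' : m⁻¹ * (nW h.cert F l₀ * torusHom D F c₀) ∈ D.monomialSubgroup F :=
          Subgroup.mul_mem _ (Subgroup.inv_mem _ (nW_mem_monomial h _)) hn
        obtain ⟨τ, θ, hB⟩ := exists_acts h hmem'
        refine mem_diagonal_of_perm h hmem' hB fun i => ?_
        obtain ⟨η₁, hη₁⟩ := acts_nW (F := F) h (l w)
        have h1 := hη₁.mul hB
        rw [mul_inv_cancel_left] at h1
        have h2 := h1.perm_eq hA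
        rw [hl w] at h2
        have h3 : τ = 1 := mul_left_cancel (a := wPerm h.cert l₀) (h2.trans (mul_one _).symm)
        rw [h3]
        exact h.simple_pos i.isLt
      refine ⟨⟨w, (⟨u, hu2⟩, ⟨_, hm⟩), ⟨v, hv2⟩⟩, Subtype.ext (Subtype.ext ?_)⟩
      show u * (m * (m⁻¹ * (nW h.cert F l₀ * torusHom D F c₀))) * v = _
      rw [mul_inv_cancel_left]
  have hT' : ∀ t ∈ D.diagonalSubgroup F, Commute (torusHom D F c) t := by
    intro t ht'
    rw [diagonalSubgroup_eq_range h] at ht'
    obtain ⟨c₁, rfl⟩ := ht'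
    exact (Commute.all c c₁).map (torusHom D F)
  let H : Subgroup T :=
    ((D.diagonalSubgroup F).comap (D.group F).subtype).comap T.subtype
  let eH : H ≃ D.diagonalSubgroup F :=
    { toFun := fun x => ⟨((x : T) : D.group F), x.2⟩
      invFun := fun t => ⟨⟨⟨t, diagonal_le_group h.cert t.2⟩,
        Subgroup.mem_centralizer_singleton_iff.2 (Subtype.ext (hT' t t.2).eq.symm)⟩, t.2⟩
      left_inv := fun x => rfl
      right_inv := fun t => rfl }
  set S := ∑ w : stabW h c, Nat.card U *
    Nat.card (rootsU D F {r | r ∈ invSet D (w : Equiv.Perm _) ∧ chi D r c = 1}) with hS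
  have hcard : Nat.card T = Nat.card H * S := by
    rw [← Nat.card_eq_of_bijective f hf, Nat.card_sigma, Nat.card_congr eH, hS, Finset.mul_sum]
    refine Finset.sum_congr rfl fun w _ => ?_
    rw [Nat.card_prod, Nat.card_prod]
    ring
  have hone : ∀ L : List ℕ, L.Pairwise (· < ·) → IsClosedRoots D {r | r ∈ L} →
      (Nat.card (rootsU D F {r | r ∈ L}) : ZMod r) = 1 := fun L h1 h2 => by
    rw [card_rootsU (F := F) h.toStd h1 h2, Nat.cast_pow, hF, one_pow]
  have hU : (Nat.card U : ZMod r) = 1 := by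
    let L := (List.range D.nroots).filter fun r => decide (D.IsPosRoot r ∧ chi D r c = 1)
    have e : {r | r ∈ L} = {r | D.IsPosRoot r ∧ chi D r c = 1} := by
      ext r
      simp only [L, Set.mem_ofPred_eq, List.mem_filter, List.mem_range, decide_eq_true_eq,
        and_iff_right_iff_imp]
      exact fun hr => hr.1.1
    have := hone L (List.Pairwise.filter _ List.pairwise_lt_range)
      (by rw [e]; exact isClosed_even h c h.isClosed_pos)
    rwa [e] at this
  have hV : ∀ w : stabW h c,
      (Nat.card (rootsU D F {r | r ∈ invSet D (w : Equiv.Perm _) ∧ chi D r c = 1}) : ZMod r) = 1 := by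
    intro w
    obtain ⟨η, hA⟩ := hact w 1 (one_mem _)
    let L := (List.range D.nroots).filter fun r =>
      decide (r ∈ invSet D (w : Equiv.Perm _) ∧ chi D r c = 1)
    have e : {r | r ∈ L} = {r | r ∈ invSet D (w : Equiv.Perm _) ∧ chi D r c = 1} := by
      ext r
      simp only [L, Set.mem_ofPred_eq, List.mem_filter, List.mem_range, decide_eq_true_eq,
        and_iff_right_iff_imp]
      exact fun hr => hr.1.1.1
    have := hone L (List.Pairwise.filter _ List.pairwise_lt_range)
      (by rw [e]; exact isClosed_even h c (isClosed_invSet h hA))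
    rwa [e] at this
  have hindex : ¬ r ∣ H.index := by
    have e : H.index = S := by
      have := H.card_mul_index
      rw [hcard] at this
      exact Nat.eq_of_mul_eq_mul_left Nat.card_pos this
    rw [e, ← ZMod.natCast_eq_zero_iff, hS, Nat.cast_sum]
    simp only [Nat.cast_mul, hU, hV, mul_one, Finset.sum_const, Finset.card_univ,
      Fintype.card_coe, nsmul_eq_mul]
    rw [ZMod.natCast_eq_zero_iff]
    exact not_dvd_card_stabW h c hrW
  obtain ⟨g, hg⟩ := exists_fixed_coset' (y := (⟨y,
    Subgroup.mem_centralizer_singleton_iff.2 (Subtype.ext hc.eq.symm)⟩ : T))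
    (Subtype.ext hy) hindex
  refine ⟨(g : D.group F), (congrArg Subtype.val
    (Subgroup.mem_centralizer_singleton_iff.1 g.2)).symm, ?_⟩
  have hmem : ((g : D.group F) : GL D.Idx F) * (y : GL D.Idx F) *
      ((g : D.group F) : GL D.Idx F)⁻¹ ∈ D.diagonalSubgroup F := hg
  rw [diagonalSubgroup_eq_range h] at hmem
  obtain ⟨c', hc'⟩ := hmem
  exact ⟨c', hc'.symm⟩

end CfsgLib.Chevalley.F4Prime
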