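import Cfsg.Agent.Lib.Chevalley.F4Prime.Values
import Cfsg.Agent.Lib.Chevalley.F4Prime.Centralizer
import Cfsg.Agent.Lib.Chevalley.TwistLang

/-!
Two commuting elements of prime order in F4(q) sit in one torus over an extension field, so the
orders of `q` modulo the two primes are allowed by a single Weyl element.
-/

set_option autoImplicit false
set_option maxRecDepth 100000
set_option linter.unusedSectionVars false

namespace CfsgLib.Chevalley.F4Prime

open Cfsg.Lie Homocyclic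

theorem not_dvd_w {p : ℕ} (hp : p.Prime) (hp5 : 5 ≤ p) :
    ¬ p ∣ (wSet fullF4.cert chevF4.rank).card := by
  rw [card_wSet]
  intro h
  rcases eq_two_or_three hp h with rfl | rfl <;> omega

theorem exists_conj_torus {K : Type*} [Field K] [Fintype K] {p k : ℕ} [Fact p.Prime]
    (hp5 : 5 ≤ p) (hK : (Fintype.card K : ZMod p) = 1) (x : chevF4.group K)
    (hx : x ^ p ^ k = 1) :
    ∃ g : chevF4.group K, ∃ c,
      (g : GL chevF4.Idx K) * x * (g : GL chevF4.Idx K)⁻¹ = torusHom chevF4 K c := by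
  classical
  haveI : Finite (GL chevF4.Idx K) := inferInstance
  set H := (chevF4.diagonalSubgroup K).subgroupOf (chevF4.group K)
  have hH : Nat.card H = (Fintype.card K - 1) ^ 4 := by
    rw [Nat.card_congr (Subgroup.subgroupOfEquivOfLe (diagonal_le_group fullF4.cert)).toEquiv]
    simpa using card_diagonalF4 (F := K)
  have hG : Nat.card (chevF4.group K) = Fintype.card K ^ (chevF4.nroots / 2) *
      (([2, 6, 8, 12] : List ℕ).map fun e => Fintype.card K ^ e - 1).prod := by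
    simpa using cardF4 (F := K)
  set Q := Fintype.card K
  have hQ : 1 < Q := Fintype.one_lt_card
  have hg : ∀ d, Q ^ d - 1 = (Q - 1) * ∑ i ∈ Finset.range d, Q ^ i := fun d => by
    have h := geom_sum_mul_add (Q - 1) d
    rw [Nat.sub_add_cancel hQ.le] at h
    rw [← h, Nat.add_sub_cancel, mul_comm]
  have hindex : H.index = Q ^ (chevF4.nroots / 2) * ((∑ i ∈ Finset.range 2, Q ^ i) *
      ((∑ i ∈ Finset.range 6, Q ^ i) * ((∑ i ∈ Finset.range 8, Q ^ i) *
        (∑ i ∈ Finset.range 12, Q ^ i)))) := by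
    refine Nat.eq_of_mul_eq_mul_left (n := (Q - 1) ^ 4) (pow_pos (by omega) 4) ?_
    rw [← hH, H.card_mul_index, hG, hH]
    simp only [List.map_cons, List.map_nil, List.prod_cons, List.prod_nil, hg]
    ring
  have hnd : ¬ p ∣ H.index := by
    rw [hindex, ← ZMod.natCast_eq_zero_iff]
    push_cast
    simp only [hK, one_pow, Finset.sum_const, Finset.card_range, nsmul_eq_mul, mul_one, one_mul]
    intro h0
    have h' : ((1152 : ℕ) : ZMod p) = 0 := by
      rw [← h0]; norm_num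
    rw [ZMod.natCast_eq_zero_iff] at h'
    rcases eq_two_or_three Fact.out h' with rfl | rfl <;> omega
  obtain ⟨g, hgm⟩ := exists_fixed_coset' hx hnd
  rw [Subgroup.mem_subgroupOf, diagonalSubgroup_eq_range fullF4] at hgm
  obtain ⟨c, hc⟩ := hgm
  exact ⟨g, c, hc.symm⟩

theorem order_facts {q n p : ℕ} (hq : q = 2 ^ n) (hp : p.Prime) (hp2 : p ≠ 2)
    (h : p ∣ q ^ 24 * (([2, 6, 8, 12] : List ℕ).map fun e => q ^ e - 1).prod) :
    ¬ p ∣ q ∧ orderOf (q : ZMod p) ∈ ({1, 2, 3, 4, 6, 8, 12} : Finset ℕ) := by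
  have : Fact p.Prime := ⟨hp⟩
  have hq1 : 1 ≤ q := hq ▸ Nat.one_le_two_pow
  have hpq : ¬ p ∣ q := fun hd =>
    hp2 ((Nat.prime_dvd_prime_iff_eq hp Nat.prime_two).1 (hp.dvd_of_dvd_pow (hq ▸ hd)))
  refine ⟨hpq, ?_⟩
  rcases hp.dvd_mul.1 h with h | h
  · exact absurd (hp.dvd_of_dvd_pow h) hpq
  simp only [List.map_cons, List.map_nil, List.prod_cons, List.prod_nil, mul_one] at h
  obtain ⟨d, hd, hpd⟩ : ∃ d ∈ ([2, 6, 8, 12] : List ℕ), p ∣ q ^ d - 1 := by
    rcases hp.dvd_mul.1 h with h | h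
    · exact ⟨2, by simp, h⟩
    rcases hp.dvd_mul.1 h with h | h
    · exact ⟨6, by simp, h⟩
    rcases hp.dvd_mul.1 h with h | h
    · exact ⟨8, by simp, h⟩
    · exact ⟨12, by simp, h⟩
  have he : (q : ZMod p) ^ d = 1 := by
    have := (ZMod.natCast_eq_zero_iff _ p).2 hpd
    rwa [Nat.cast_sub (Nat.one_le_pow _ _ hq1), Nat.cast_pow, Nat.cast_one, sub_eq_zero] at this
  have hdvd := orderOf_dvd_of_pow_eq_one he
  simp only [List.mem_cons, List.not_mem_nil, or_false] at hd
  rcases hd with rfl | rfl | rfl | rfl <;>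
    exact (show ∀ e ∈ Nat.divisors _, e ∈ ({1, 2, 3, 4, 6, 8, 12} : Finset ℕ) by decide) _
      (Nat.mem_divisors.2 ⟨hdvd, by norm_num⟩)

theorem five_le_of_order {q p : ℕ} [Fact p.Prime] (hq : ¬ p ∣ q)
    (he : 3 ≤ orderOf (q : ZMod p)) : 5 ≤ p := by
  have h1 := orderOf_dvd_of_pow_eq_one (ZMod.pow_card_sub_one_eq_one
    (show (q : ZMod p) ≠ 0 by rwa [Ne, ZMod.natCast_eq_zero_iff]))
  have hp := (Fact.out : p.Prime)
  have h2 := Nat.le_of_dvd (Nat.sub_pos_of_lt hp.one_lt) h1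
  by_contra hlt
  have : p = 4 := by omega
  subst this
  norm_num at hp

theorem val4_pow_eq_one {K : Type*} [Field K] {c : Fin chevF4.rank → Kˣ} {m : ℕ}
    (h : torusHom chevF4 K c ^ m = 1) (j : Fin 4) : val4 c j ^ m = 1 := by
  rw [← map_pow] at h
  have e := congrArg (fun M : GL chevF4.Idx K => (M : Matrix chevF4.Idx chevF4.Idx K)
    (Sum.inr (smp fullF4.cert (j : Fin chevF4.rank))) (Sum.inr (smp fullF4.cert (j : Fin chevF4.rank)))) h
  simp only [coe_torusHom, Matrix.diagonal_apply_eq, Sum.elim_inr, Units.val_one,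
    Matrix.one_apply_eq] at e
  rw [val4, ← map_pow]
  exact Units.ext e

theorem exists_val4_ne {K : Type*} [Field K] {c : Fin chevF4.rank → Kˣ}
    (h : torusHom chevF4 K c ≠ 1) : ∃ j, val4 c j ≠ 1 := by
  by_contra hall
  simp only [not_exists, not_not] at hall
  refine h ?_
  rw [← map_one (torusHom chevF4 K)]
  refine torusHom_eq_of_chi fun s => ?_
  rw [chi_val4, map_one]
  exact Finset.prod_eq_one fun i _ => by rw [hall i, _root_.one_zpow]

universe u

variable {F : Type u} [Field F] [Fintype F]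

/-- The obstruction to commuting elements. -/
theorem exists_common_set {n : ℕ} (hF : Fintype.card F = 2 ^ n) {r s : ℕ} (hr : r.Prime)
    (hs : s.Prime) (hs2 : s ≠ 2) {x y : chevF4.group F} (hxy : Commute x y)
    (hx : orderOf x = s) (hy : orderOf y = r) (hs5 : 5 ≤ s)
    (hcase : orderOf ((Fintype.card F : ℕ) : ZMod s) ∈ ({8, 12} : Finset ℕ) ∨ 5 ≤ r) :
    r ≠ 2 ∧ ∃ i, orderOf ((Fintype.card F : ℕ) : ZMod r) ∈ ordSet i ∧
      orderOf ((Fintype.card F : ℕ) : ZMod s) ∈ ordSet i := by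
  classical
  set q := Fintype.card F with hqdef
  haveI := Fact.mk hs
  haveI : Finite (GL chevF4.Idx F) := inferInstance
  set p := ringChar F
  have : Fact p.Prime := ⟨CharP.char_is_prime F p⟩
  have hp2 : p = 2 := by
    have h := FiniteField.cast_card_eq_zero F
    rw [← hqdef, hF, ringChar.spec] at h
    exact (Nat.prime_dvd_prime_iff_eq Fact.out Nat.prime_two).1 ((Fact.out : p.Prime).dvd_of_dvd_pow h)
  let K := FiniteField.Extension F p 24
  have : Finite K := Module.finite_of_finite F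
  let hKf : Fintype K := Fintype.ofFinite K
  have hK : Fintype.card K = q ^ 24 := by
    rw [← Nat.card_eq_fintype_card, FiniteField.natCard_extension, Nat.card_eq_fintype_card]
  haveI : CharP K p := charP_of_injective_ringHom (algebraMap F K).injective p
  haveI : ExpChar K p := ExpChar.prime (Fact.out : p.Prime)
  have hcardG : Nat.card (chevF4.group F) =
      q ^ 24 * (([2, 6, 8, 12] : List ℕ).map fun e => q ^ e - 1).prod := by
    have := cardF4 (F := F)
    rw [one_mul] at this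
    exact this
  have hone : ∀ {ℓ : ℕ} {z : chevF4.group F}, ℓ.Prime → ℓ ≠ 2 → orderOf z = ℓ →
      (¬ ℓ ∣ q) ∧ (Fintype.card K : ZMod ℓ) = 1 := by
    intro ℓ z hℓ hℓ2 hz
    haveI := Fact.mk hℓ
    obtain ⟨h1, h2⟩ := order_facts hF hℓ hℓ2
      (hcardG ▸ hz ▸ orderOf_dvd_natCard z)
    refine ⟨h1, ?_⟩
    rw [hK, Nat.cast_pow, ← orderOf_dvd_iff_pow_eq_one]
    revert h2
    generalize orderOf (q : ZMod ℓ) = e
    simp only [Finset.mem_insert, Finset.mem_singleton]
    rintro (rfl | rfl | rfl | rfl | rfl | rfl | rfl) <;> norm_num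
  obtain ⟨hsq, hKs⟩ := hone hs hs2 hx
  set f : F →+* K := algebraMap F K
  let ι : chevF4.group F →* chevF4.group K :=
    ((glMap chevF4 f).comp (chevF4.group F).subtype).codRestrict _ fun z => glMap_group f z.2
  have hι : Function.Injective ι := fun a b e =>
    Subtype.ext (glMap_injective f (congrArg Subtype.val e))
  obtain ⟨m, hm⟩ : ∃ m, q = p ^ m := ⟨n, by rw [hp2, hF]⟩
  set φ : K →+* K := iterateFrobenius K p m
  have hφ : ∀ z : K, φ z = z ^ q := fun z => by rw [hm]; exact iterateFrobenius_def p m z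
  have hfix : ∀ z : GL chevF4.Idx F, glMap chevF4 φ (glMap chevF4 f z) = glMap chevF4 f z :=
    fun z => Units.ext (Matrix.ext fun i j => by
      rw [glMap_apply, glMap_apply, hφ, ← map_pow, hqdef, FiniteField.pow_card])
  -- a single Weyl twist for everything moved into the torus by `g`
  have fusion : ∀ g : chevF4.group K, ∃ σ ∈ wSet fullF4.cert chevF4.rank,
      ∀ (z : chevF4.group F) (c : Fin chevF4.rank → Kˣ),
        (g : GL chevF4.Idx K) * glMap chevF4 f z * (g : GL chevF4.Idx K)⁻¹ = torusHom chevF4 K c →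
          ∀ t : Fin chevF4.nroots, chi chevF4 (σ t) c = chi chevF4 t c ^ q := by
    intro g
    obtain ⟨σ, hσ, hfus⟩ := exists_monomial_fusion fullF4 (F := K)
      (g := (g : GL chevF4.Idx K) * (glMap chevF4 φ g)⁻¹)
      (Subgroup.mul_mem _ g.2 (Subgroup.inv_mem _ (glMap_group φ g.2)))
    refine ⟨σ, hσ, fun z c hc t => ?_⟩
    rw [← map_pow]
    refine hfus (c ^ q) c ?_ t
    have e : glMap chevF4 φ (torusHom chevF4 K c) = torusHom chevF4 K (c ^ q) := by
      rw [glMap_torus]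
      congr 1
      funext k
      exact Units.ext (by simp [hφ])
    rw [← e, ← hc, map_mul, map_mul, map_inv, hfix]
    group
  obtain ⟨g₀, c₁, hc₁⟩ := exists_conj_torus (k := 1) hs5 hKs (ι x)
    (by rw [← map_pow, pow_one, ← hx, pow_orderOf_eq_one, map_one])
  have hne1 : ∀ {z : chevF4.group F} {ℓ : ℕ} (g : chevF4.group K) {c : Fin chevF4.rank → Kˣ},
      ℓ.Prime → orderOf z = ℓ →
      (g : GL chevF4.Idx K) * glMap chevF4 f z * (g : GL chevF4.Idx K)⁻¹ = torusHom chevF4 K c →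
      (torusHom chevF4 K c ^ ℓ = 1) ∧ torusHom chevF4 K c ≠ 1 := by
    intro z ℓ g c hℓ hz e
    rw [← e]
    constructor
    · rw [conj_pow, ← map_pow, ← SubmonoidClass.coe_pow, ← hz, pow_orderOf_eq_one]
      simp
    · rw [Ne, conj_eq_one_iff]
      intro h
      have hz1 : z = 1 := Subtype.ext (glMap_injective f (by rw [h, Subgroup.coe_one, map_one]))
      rw [hz1, orderOf_one] at hz
      exact hℓ.one_lt.ne hz
  obtain ⟨hc1, hc1ne⟩ := hne1 g₀ hs hx hc₁
  set y₀ : chevF4.group K := g₀ * ι y * g₀⁻¹ with hy₀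
  have hcomm : Commute (torusHom chevF4 K c₁) (y₀ : GL chevF4.Idx K) := by
    rw [← hc₁]
    exact (((hxy.map ι).map (chevF4.group K).subtype).map
      (MulAut.conj (g₀ : GL chevF4.Idx K)).toMonoidHom)
  obtain ⟨j₁, hj₁⟩ := exists_val4_ne hc1ne
  -- move `y` into the torus
  obtain ⟨g, c₂, hgx, hgy⟩ : ∃ g : chevF4.group K, ∃ c₂,
      (g : GL chevF4.Idx K) * glMap chevF4 f x * (g : GL chevF4.Idx K)⁻¹ = torusHom chevF4 K c₁ ∧
      (g : GL chevF4.Idx K) * glMap chevF4 f y * (g : GL chevF4.Idx K)⁻¹ = torusHom chevF4 K c₂ := by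
    rcases hcase with htop | hr5
    · obtain ⟨σ₀, hσ₀, hf₀⟩ := fusion g₀
      have hchi := hf₀ x c₁ hc₁
      obtain ⟨i, hi⟩ := exists_cong hσ₀
      have hmem := order_mem hσ₀ hchi hs hs2 hsq (val4_pow_eq_one hc1) hj₁ hi
      have hi' : i = 1 ∨ i = 2 :=
        (ordSet_top i _ hmem _ hmem (by simpa using htop)).2
      have h1 := regular hσ₀ hchi hi hi' hs hs5 (val4_pow_eq_one hc1) hj₁
      obtain ⟨u, hu, M, hM, π, ηm, hAm, hπ, u', hu', eY⟩ :=
        exists_of_commute_torus fullF4 y₀.2 hcomm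
      have htriv : rootsU chevF4 K {t | chevF4.IsPosRoot t ∧ chi chevF4 t c₁ = 1} ≤ ⊥ := by
        rw [rootsU_le_iff fullF4.cert]
        intro t ht _
        exact absurd ht.2 (h1 ⟨t, ht.1.1⟩)
      rw [Subgroup.mem_bot.1 (htriv hu), Subgroup.mem_bot.1 (htriv hu'), one_mul, mul_one] at eY
      have hπW : π ∈ wSet fullF4.cert chevF4.rank := by
        obtain ⟨l, t, ht, hMl⟩ := (mem_monomial_iff fullF4).1 hM
        obtain ⟨c₀, hc₀⟩ : t ∈ (torusHom chevF4 K).range := by
          rwa [← diagonalSubgroup_eq_range fullF4]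
        obtain ⟨η₀, hη₀⟩ := acts_nW (F := K) fullF4 l
        have h2 := hη₀.mul (acts_torus fullF4.cert c₀)
        rw [mul_one, hc₀, ← hMl] at h2
        rw [hAm.perm_eq h2]
        exact mem_wSet_rank fullF4.cert l
      obtain rfl : π = 1 := stab_eq_one hπW hπ hs hs5 (val4_pow_eq_one hc1) h1
      have hMd := mem_diagonal_of_perm fullF4 hM hAm fun i => fullF4.simple_pos i.isLt
      rw [diagonalSubgroup_eq_range fullF4, ← eY] at hMd
      obtain ⟨c₂, hc₂⟩ := hMd
      exact ⟨g₀, c₂, hc₁, hc₂.symm⟩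
    · haveI := Fact.mk hr
      obtain ⟨hrq, hKr⟩ := hone hr (by omega) hy
      obtain ⟨g, hg, c', hc'⟩ := exists_conj_torus_of_commute fullF4 c₁ (k := 1) hKr
        (not_dvd_w hr hr5) y₀ (by
          rw [hy₀, conj_pow, ← map_pow, pow_one, ← hy, pow_orderOf_eq_one, map_one, mul_one,
            mul_inv_cancel]) hcomm
      refine ⟨g * g₀, c', ?_, ?_⟩
      · rw [Subgroup.coe_mul]
        calc _ = (g : GL chevF4.Idx K) * torusHom chevF4 K c₁ * (g : GL chevF4.Idx K)⁻¹ := by
              rw [← hc₁]; simp only [_root_.mul_inv_rev, mul_assoc]; rfl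
          _ = _ := by rw [hg.symm.eq, mul_inv_cancel_right]
      · rw [← hc', hy₀]
        simp only [Subgroup.coe_mul, Subgroup.coe_inv, _root_.mul_inv_rev, mul_assoc]
        rfl
  obtain ⟨σ, hσ, hf⟩ := fusion g
  obtain ⟨i, hi⟩ := exists_cong hσ
  obtain ⟨hc2, hc2ne⟩ := hne1 g hr hy hgy
  have hr2 : r ≠ 2 := by
    rintro rfl
    haveI : CharP K 2 := hp2 ▸ (inferInstance : CharP K p)
    haveI : Fact (Nat.Prime 2) := ⟨Nat.prime_two⟩
    exact hc2ne (Twist.torusHom_eq_one_of_pow_char 2 (k := 1) (by rw [pow_one]; exact hc2))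
  obtain ⟨j₂, hj₂⟩ := exists_val4_ne hc2ne
  exact ⟨hr2, i, order_mem hσ (hf y c₂ hgy) hr hr2 (hone hr hr2 hy).1 (val4_pow_eq_one hc2) hj₂ hi,
    order_mem hσ (hf x c₁ hgx) hs hs2 hsq (val4_pow_eq_one hc1) hj₁ hi⟩

end CfsgLib.Chevalley.F4Prime
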