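import Cfsg.Agent.Lib.Chevalley.F4Prime.Values
import Cfsg.Agent.Lib.Chevalley.TwistLang

/-!
Twisted torus elements of F4(q) whose orders are one or two primes, and involutions commuting
with them.
-/

set_option autoImplicit false
set_option maxRecDepth 100000
set_option linter.unusedSectionVars false

namespace CfsgLib.Chevalley.F4Prime

open Cfsg.Lie Homocyclic
open CfsgLib.KnownSimple.ChevalleyLang (Omega exists_preimage)

/-- The inverse of the Cartan matrix. -/
def invCartan (i j : Fin 4) : ℤ :=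
  (([[2, 3, 4, 2], [3, 6, 8, 4], [2, 4, 6, 3], [1, 2, 3, 2]] : List (List ℤ)).getD i []).getD j 0

theorem invCartan_spec : ∀ i k : Fin 4, ∑ j : Fin 4, cartanMat chevF4 i j * invCartan j k =
    if i = k then 1 else 0 := by
  decide +kernel

theorem invCartan_spec' : ∀ i k : Fin 4, ∑ j : Fin 4, invCartan i j * cartanMat chevF4 j k =
    if i = k then 1 else 0 := by
  decide +kernel

theorem injective_torusHom {K : Type*} [Field K] : Function.Injective (torusHom chevF4 K) :=
  Twist.torusHom_injective_of_inverse (N := invCartan) invCartan_spec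
    fun j => fullF4.cert.wf.simple_lt j j.isLt

/-- The torus element with given values at the fundamental roots. -/
noncomputable def cOf {K : Type*} [Field K] (x : Fin 4 → Kˣ) : Fin chevF4.rank → Kˣ :=
  fun k => ∏ j : Fin 4, x j ^ invCartan j k

theorem val4_cOf {K : Type*} [Field K] (x : Fin 4 → Kˣ) (m : Fin 4) : val4 (cOf x) m = x m := by
  show ∏ i : Fin 4, (∏ j : Fin 4, x j ^ invCartan j i) ^ cartanMat chevF4 i m = x m
  simp only [← Finset.prod_zpow, ← _root_.zpow_mul]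
  rw [Finset.prod_comm, Finset.prod_eq_single m]
  · have h := invCartan_spec' m m
    rw [if_pos rfl] at h
    simp only [Fin.sum_univ_four] at h
    simp only [Fin.prod_univ_four, ← _root_.zpow_add]
    rw [h, zpow_one]
  · intro j _ hj
    have h := invCartan_spec' j m
    rw [if_neg hj] at h
    simp only [Fin.sum_univ_four] at h
    simp only [Fin.prod_univ_four, ← _root_.zpow_add]
    rw [h, zpow_zero]
  · intro h; exact absurd (Finset.mem_univ _) h

/-- The value of a short polynomial. -/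
def ev (v : List ℤ) (q : ℤ) : ℤ :=
  v.getD 0 0 + v.getD 1 0 * q + v.getD 2 0 * q ^ 2 + v.getD 3 0 * q ^ 3

/-- The cyclotomic polynomial of order `e`, for the seven orders. -/
def phiL : ℕ → List ℤ
  | 1 => [-1, 1]
  | 2 => [1, 1]
  | 3 => [1, 1, 1]
  | 4 => [1, 0, 1]
  | 6 => [1, -1, 1]
  | 8 => [1, 0, 0, 0, 1]
  | _ => [1, 0, -1, 0, 1]

/-- A word as a list of fundamental reflections. -/
def wl (l : List (Fin 4)) : List (Fin chevF4.rank) := l

/-- The matrix of a word. -/
def wordX (l : List (Fin 4)) : Mx := l.foldr (fun i M => mulX (genX i) M) idX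

/-- An eigenvector modulo the cyclotomic polynomial, with a unit coordinate. -/
def eigB (l : List (Fin 4)) (e : ℕ) (v : List (List ℤ)) : Bool :=
  ([1, 2, 3, 4, 6, 8, 12] : List ℕ).contains e &&
  (List.range 4).all (fun j => (List.range 5).all fun k =>
    decide (ent (wordX l) 0 j * (v.getD 0 []).getD k 0 + ent (wordX l) 1 j * (v.getD 1 []).getD k 0 +
      ent (wordX l) 2 j * (v.getD 2 []).getD k 0 + ent (wordX l) 3 j * (v.getD 3 []).getD k 0 -
      (if k = 0 then 0 else (v.getD j []).getD (k - 1) 0) =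
      -(v.getD j []).getD ((phiL e).length - 2) 0 * (phiL e).getD k 0)) &&
  (List.range 4).all (fun j => decide ((v.getD j []).getD 4 0 = 0)) &&
  (List.range 4).any fun j => (List.range 4).any fun t => (List.range 4).all fun k =>
    decide (((v.getD j []).getD k 0).natAbs = if k = t then 1 else 0)

/-- A root fixed by the word and orthogonal to the eigenvector. -/
def fixB (l : List (Fin 4)) (al : List ℤ) (v : List (List ℤ)) : Bool :=
  rootsX.contains al && (app (wordX l) al == al) &&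
    (List.range 4).all fun k => decide (al.getD 0 0 * (v.getD 0 []).getD k 0 +
      al.getD 1 0 * (v.getD 1 []).getD k 0 + al.getD 2 0 * (v.getD 2 []).getD k 0 +
      al.getD 3 0 * (v.getD 3 []).getD k 0 = 0)

/-- The certificates: a word, a root, eigenvectors. -/
def certs : List (List (Fin 4) × List ℤ × List (ℕ × List (List ℤ))) := [
  ([], [0, 0, 0, 1], [(1, [[0], [0], [1], [0]])]),
  ([1, 2, 1], [0, 0, 1, 0], [(2, [[1], [-1], [0], [1]])]),
  ([3, 2], [1, 0, 0, 0], [(3, [[0, 0], [0, 1], [1, -1], [-2, -1]])]),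
  ([2, 1], [0, 1, 1, 1], [(4, [[0, 1], [1, -1], [-2, 0], [1, 1]])]),
  ([3, 2, 1], [2, 3, 2, 1], [(6, [[-1, 0], [0, 1], [1, -1], [0, -1]])]),
  ([3, 2, 1, 2, 1, 0], [], [(8, [[0, -1, -1, 0], [0, 0, 1, 0], [-1, 0, -1, 0], [1, 1, 1, 1]])]),
  ([3, 2, 1, 0], [], [(12, [[0, 0, -1, 0], [0, -1, 0, 0], [-1, 1, 1, 0], [1, 0, 0, 1]])]),
  ([1, 2, 1], [], [(1, [[0], [0], [0], [1]]), (2, [[1], [-1], [0], [1]])]),
  ([3, 2], [], [(1, [[0], [1], [0], [0]]), (3, [[0, 0], [0, 1], [1, -1], [-2, -1]])]),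
  ([2, 1], [], [(1, [[0], [0], [0], [1]]), (4, [[0, 1], [1, -1], [-2, 0], [1, 1]])]),
  ([3, 2, 1], [], [(1, [[1], [0], [0], [0]]), (6, [[-1, 0], [0, 1], [1, -1], [0, -1]])]),
  ([2, 1, 2, 3, 2, 1, 2, 0, 1, 2, 3, 0, 1], [], [(2, [[0], [1], [-1], [-1]]), (3, [[1, 1], [0, -1], [-2, 0], [2, 0]])]),
  ([2, 1, 2, 0, 1], [], [(2, [[1], [-1], [0], [1]]), (4, [[0, 1], [-1, 0], [2, 0], [-1, -1]])]),
  ([3, 2, 1, 2, 3, 2, 1, 2, 1, 0], [], [(2, [[0], [1], [-1], [-1]]), (6, [[-2, 1], [1, 0], [0, 0], [0, 0]])])]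

theorem certs_ok : ∀ c ∈ certs, (∀ ev ∈ c.2.2, eigB c.1 ev.1 ev.2 = true) ∧
    (c.2.1 ≠ [] → ∀ ev ∈ c.2.2, fixB c.1 c.2.1 ev.2 = true) := by
  decide +kernel

theorem toMat_wordX (l : List (Fin 4)) :
    toMat (wordX l) = wM (wPerm fullF4.cert (wl l)) := by
  induction l with
  | nil =>
    rw [show wordX [] = idX from rfl, toMat_idX]
    exact (wMat_one fullF4.cert).symm
  | cons i l ih =>
    show toMat (mulX (genX i) (wordX l)) = _
    rw [toMat_mulX, ih]
    exact (wMat_word_cons i (wl l)).symm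

theorem phi_eval {q r e : ℕ} [Fact r.Prime] (he : e ∈ ([1, 2, 3, 4, 6, 8, 12] : List ℕ))
    (h : orderOf (q : ZMod r) = e) :
    (((phiL e).getD 0 0 + (phiL e).getD 1 0 * q + (phiL e).getD 2 0 * (q : ℤ) ^ 2 +
      (phiL e).getD 3 0 * (q : ℤ) ^ 3 + (phiL e).getD 4 0 * (q : ℤ) ^ 4 : ℤ) : ZMod r) = 0 := by
  set x : ZMod r := (q : ZMod r) with hx
  have hpow : x ^ e = 1 := h ▸ pow_orderOf_eq_one x
  have hlt : ∀ d, 0 < d → d < e → x ^ d ≠ 1 := fun d hd hde hxd =>
    absurd (Nat.le_of_dvd hd (h ▸ orderOf_dvd_of_pow_eq_one hxd)) (by omega)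
  simp only [List.mem_cons, List.not_mem_nil, or_false] at he
  rcases he with rfl | rfl | rfl | rfl | rfl | rfl | rfl <;> simp [phiL, ← hx]
  · linear_combination hpow
  · rcases sq_eq_one_iff.1 hpow with e | e
    · exact absurd (by rw [e, one_pow]) (hlt 1 (by norm_num) (by norm_num))
    · linear_combination e
  · have : x - 1 ≠ 0 := fun e => hlt 1 (by norm_num) (by norm_num) (by linear_combination e)
    refine (mul_eq_zero.1 (show (x - 1) * (1 + x + x ^ 2) = 0 by linear_combination hpow)).resolve_left this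
  · have : x ^ 2 - 1 ≠ 0 := fun e => hlt 2 (by norm_num) (by norm_num) (by linear_combination e)
    refine (mul_eq_zero.1 (show (x ^ 2 - 1) * (1 + x ^ 2) = 0 by linear_combination hpow)).resolve_left this
  · have h1 : (x ^ 3 - 1) * (x + 1) ≠ 0 := mul_ne_zero
      (fun e => hlt 3 (by norm_num) (by norm_num) (by linear_combination e))
      (fun e => hlt 2 (by norm_num) (by norm_num) (by linear_combination (x - 1) * e))
    refine (mul_eq_zero.1 (show ((x ^ 3 - 1) * (x + 1)) * (1 + -x + x ^ 2) = 0 by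
      linear_combination hpow)).resolve_left h1
  · have : x ^ 4 - 1 ≠ 0 := fun e => hlt 4 (by norm_num) (by norm_num) (by linear_combination e)
    refine (mul_eq_zero.1 (show (x ^ 4 - 1) * (1 + x ^ 4) = 0 by linear_combination hpow)).resolve_left this
  · have h1 : (x ^ 6 - 1) * (x ^ 2 + 1) ≠ 0 := mul_ne_zero
      (fun e => hlt 6 (by norm_num) (by norm_num) (by linear_combination e))
      (fun e => hlt 4 (by norm_num) (by norm_num) (by linear_combination (x ^ 2 - 1) * e))
    refine (mul_eq_zero.1 (show ((x ^ 6 - 1) * (x ^ 2 + 1)) * (1 + -x ^ 2 + x ^ 4) = 0 by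
      linear_combination hpow)).resolve_left h1

theorem eigB_spec {l : List (Fin 4)} {e : ℕ} {v : List (List ℤ)} (hB : eigB l e v = true)
    {q r : ℕ} [Fact r.Prime] (hrq : ¬ r ∣ q) (h : orderOf (q : ZMod r) = e) :
    (∀ j : Fin 4, (r : ℤ) ∣ (ent (wordX l) 0 j * ev (v.getD 0 []) q +
      ent (wordX l) 1 j * ev (v.getD 1 []) q + ent (wordX l) 2 j * ev (v.getD 2 []) q +
      ent (wordX l) 3 j * ev (v.getD 3 []) q - q * ev (v.getD (j : ℕ) []) q)) ∧
      ∃ j : Fin 4, ¬ (r : ℤ) ∣ ev (v.getD (j : ℕ) []) q := by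
  simp only [eigB, Bool.and_eq_true, List.contains_iff_mem, List.all_eq_true, List.any_eq_true,
    List.mem_range, decide_eq_true_eq] at hB
  obtain ⟨⟨⟨he, hid⟩, h4⟩, j₀, hj₀, t, ht, hk⟩ := hB
  constructor
  · intro j
    rw [← ZMod.intCast_zmod_eq_zero_iff_dvd]
    have e0 := hid j j.isLt 0 (by norm_num)
    have e1 := hid j j.isLt 1 (by norm_num)
    have e2 := hid j j.isLt 2 (by norm_num)
    have e3 := hid j j.isLt 3 (by norm_num)
    have e4 := hid j j.isLt 4 (by norm_num)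
    have f0 := h4 0 (by norm_num)
    have f1 := h4 1 (by norm_num)
    have f2 := h4 2 (by norm_num)
    have f3 := h4 3 (by norm_num)
    simp only [f0, f1, f2, f3, mul_zero, add_zero, OfNat.ofNat_ne_zero, one_ne_zero, if_false,
      Nat.reduceSub, if_true] at e0 e1 e2 e3 e4
    have hΦ := phi_eval he h
    calc _ = ((-(v.getD (j : ℕ) []).getD ((phiL e).length - 2) 0 * ((phiL e).getD 0 0 + (phiL e).getD 1 0 * q + (phiL e).getD 2 0 * (q : ℤ) ^ 2 +
        (phiL e).getD 3 0 * (q : ℤ) ^ 3 + (phiL e).getD 4 0 * (q : ℤ) ^ 4) : ℤ) : ZMod r) := by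
          congr 1
          simp only [ev]
          linear_combination e0 + (q : ℤ) * e1 + (q : ℤ) ^ 2 * e2 + (q : ℤ) ^ 3 * e3 +
            (q : ℤ) ^ 4 * e4
      _ = 0 := by rw [Int.cast_mul, hΦ, mul_zero]
  · refine ⟨⟨j₀, hj₀⟩, ?_⟩
    rw [← ZMod.intCast_zmod_eq_zero_iff_dvd]
    have hq : (q : ZMod r) ≠ 0 := by rwa [Ne, ZMod.natCast_eq_zero_iff]
    have k0 := hk 0 (by norm_num)
    have k1 := hk 1 (by norm_num)
    have k2 := hk 2 (by norm_num)
    have k3 := hk 3 (by norm_num)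
    simp only [ev, Int.cast_add, Int.cast_mul, Int.cast_pow, Int.cast_natCast]
    have z : ∀ a : ℤ, a.natAbs = 1 → (a : ZMod r) ≠ 0 := fun a ha => by
      rcases Int.natAbs_eq_natAbs_iff.1 (show a.natAbs = (1 : ℤ).natAbs by simpa using ha) with e | e <;>
        simp [e]
    interval_cases t <;> norm_num [Int.natAbs_eq_zero] at k0 k1 k2 k3
    · simp [k1, k2, k3, z _ k0]
    · simp [k0, k2, k3, z _ k1, hq]
    · simp [k0, k1, k3, z _ k2, hq]
    · simp [k0, k1, k2, z _ k3, hq]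

section Omega

universe u

variable {F : Type u} [Field F] [Fintype F]

/-- A twisted torus element of prime order. -/
theorem exists_twisted (l : List (Fin 4)) {e : ℕ} {v : List (List ℤ)} (hB : eigB l e v = true)
    {r : ℕ} (hr : r.Prime) (hrq : ¬ r ∣ Fintype.card F)
    (h : orderOf ((Fintype.card F : ℕ) : ZMod r) = e) :
    ∃ c : Fin chevF4.rank → (Omega chevF4 F)ˣ,
      (∀ s : Fin chevF4.nroots, chi chevF4 (wPerm fullF4.cert (wl l) s) c =
        chi chevF4 s c ^ Fintype.card F) ∧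
      orderOf (torusHom chevF4 (Omega chevF4 F) c) = r ∧
      ∀ al : List ℤ, fixB l al v = true → ∀ s : Fin chevF4.nroots, col s = al →
        chi chevF4 s c = 1 := by
  haveI := Fact.mk hr
  set q := Fintype.card F with hqdef
  set Ω := Omega chevF4 F
  haveI : NeZero (r : Ω) := ⟨fun h0 => hrq (by
    have h1 : (r : F) = 0 := (algebraMap F Ω).injective (by rw [map_natCast, map_zero]; exact h0)
    obtain ⟨p, hp⟩ := CharP.exists F
    have hpr := (CharP.cast_eq_zero_iff F p r).1 h1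
    have hpp : p.Prime := CharP.char_is_prime F p
    rw [← (Nat.prime_dvd_prime_iff_eq hpp hr).1 hpr, hqdef, ← CharP.cast_eq_zero_iff F p,
      FiniteField.cast_card_eq_zero])⟩
  obtain ⟨ζ, hζ⟩ := HasEnoughRootsOfUnity.exists_primitiveRoot Ω r
  set α : Ωˣ := (hζ.isUnit hr.ne_zero).unit
  have hα : orderOf α = r := by
    rw [← orderOf_units, IsUnit.unit_spec]
    exact hζ.eq_orderOf.symm
  obtain ⟨hdvd, j₀, hj₀⟩ := eigB_spec hB hrq h
  set a : Fin 4 → ℤ := fun i => ev (v.getD (i : ℕ) []) q with ha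
  set c := cOf fun i => α ^ a i with hc
  have hval : ∀ i, val4 c i = α ^ a i := fun i => val4_cOf _ i
  have hchi : ∀ s : Fin chevF4.nroots, chi chevF4 s c = α ^ ∑ i : Fin 4, a i * crd auxF4 i s := by
    intro s
    rw [chi_val4]
    simp only [hval, ← _root_.zpow_mul, Fin.prod_univ_four, Fin.sum_univ_four, _root_.zpow_add]
  have hMt := toMat_wordX l
  refine ⟨c, fun s => ?_, ?_, fun al hal s hs => ?_⟩
  · rw [hchi, hchi, ← zpow_natCast, ← _root_.zpow_mul, zpow_eq_zpow_iff_modEq, hα,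
      Int.modEq_iff_dvd]
    have he : ∀ i : Fin 4, crd auxF4 i (wPerm fullF4.cert (wl l) s) =
        ∑ j : Fin 4, crd auxF4 j s * ent (wordX l) i j := by
      intro i
      rw [wPerm_lin fullF4 _ i.isLt s]
      exact Finset.sum_congr rfl fun j _ => congrArg (_ * ·) (congrFun (congrFun hMt i) j).symm
    simp only [he]
    obtain ⟨k0, h0⟩ := hdvd 0
    obtain ⟨k1, h1⟩ := hdvd 1
    obtain ⟨k2, h2⟩ := hdvd 2
    obtain ⟨k3, h3⟩ := hdvd 3
    simp only [Fin.sum_univ_four, ha, Fin.val_zero, Fin.val_one, Fin.val_two,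
      show ((3 : Fin 4) : ℕ) = 3 from rfl] at h0 h1 h2 h3 ⊢
    refine ⟨-(crd auxF4 0 s * k0 + crd auxF4 1 s * k1 + crd auxF4 2 s * k2 + crd auxF4 3 s * k3), ?_⟩
    linear_combination -(crd auxF4 0 s) * h0 - (crd auxF4 1 s) * h1 - (crd auxF4 2 s) * h2 -
      (crd auxF4 3 s) * h3
  · refine orderOf_eq_prime ?_ ?_
    · rw [← map_pow, ← map_one (torusHom chevF4 Ω)]
      refine torusHom_eq_of_chi fun s => ?_
      rw [map_pow, map_one, hchi, ← zpow_natCast, ← _root_.zpow_mul, mul_comm, _root_.zpow_mul,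
        zpow_natCast, ← hα, pow_orderOf_eq_one, _root_.one_zpow]
    · intro h1
      rw [← map_one (torusHom chevF4 Ω)] at h1
      have e1 := congrArg (fun c => val4 c j₀) (injective_torusHom h1)
      simp only [val4, map_one] at e1
      rw [← val4, hval, ← orderOf_dvd_iff_zpow_eq_one, hα] at e1
      exact hj₀ e1
  · rw [hchi]
    simp only [fixB, Bool.and_eq_true, List.all_eq_true, List.mem_range, decide_eq_true_eq] at hal
    have k0 := hal.2 0 (by norm_num)
    have k1 := hal.2 1 (by norm_num)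
    have k2 := hal.2 2 (by norm_num)
    have k3 := hal.2 3 (by norm_num)
    rw [← hs] at k0 k1 k2 k3
    have c0 := col_getD s 0
    have c1 := col_getD s 1
    have c2 := col_getD s 2
    have c3 := col_getD s 3
    simp only [Fin.sum_univ_four, ha, ev, Fin.val_zero, Fin.val_one, Fin.val_two,
      show ((3 : Fin 4) : ℕ) = 3 from rfl] at c0 c1 c2 c3 ⊢
    rw [c0, c1, c2, c3] at k0 k1 k2 k3
    convert zpow_zero α using 2
    linear_combination k0 + (q : ℤ) * k1 + (q : ℤ) ^ 2 * k2 + (q : ℤ) ^ 3 * k3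

theorem exists_frame_data (l : List (Fin 4)) :
    ∃ (σ : Omega chevF4 F ≃ₐ[F] Omega chevF4 F) (g : GL chevF4.Idx (Omega chevF4 F))
      (η : Fin chevF4.nroots → Omega chevF4 F),
      (∀ y, σ y = y ^ Fintype.card F) ∧ g ∈ chevF4.group (Omega chevF4 F) ∧
      Twist.frobPush chevF4 σ g = g * nW fullF4.cert (Omega chevF4 F) (wl l) ∧
      Acts fullF4.cert (nW fullF4.cert (Omega chevF4 F) (wl l))
        (wPerm fullF4.cert (wl l)) η := by
  obtain ⟨σ, hσ⟩ := Twist.exists_frobAlg chevF4 F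
  obtain ⟨g, hg, hgn⟩ := Twist.exists_frame fullF4 (N := invCartan) invCartan_spec hσ
    (wl l)
  obtain ⟨η, hA⟩ := acts_nW (F := Omega chevF4 F) fullF4 (wl l)
  exact ⟨σ, g, η, hσ, hg, hgn, hA⟩

/-- An element of order `r s` from two eigenvectors of one word. -/
theorem exists_orderOf_pair (l : List (Fin 4)) {e e' : ℕ} {v v' : List (List ℤ)}
    (hB : eigB l e v = true) (hB' : eigB l e' v' = true) {r s : ℕ} (hr : r.Prime) (hs : s.Prime)
    (hrs : r ≠ s) (hrq : ¬ r ∣ Fintype.card F) (hsq : ¬ s ∣ Fintype.card F)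
    (he : orderOf ((Fintype.card F : ℕ) : ZMod r) = e)
    (he' : orderOf ((Fintype.card F : ℕ) : ZMod s) = e') :
    ∃ x : chevF4.group F, orderOf x = r * s := by
  obtain ⟨c, hc, ho, -⟩ := exists_twisted l hB hr hrq he
  obtain ⟨c', hc', ho', -⟩ := exists_twisted l hB' hs hsq he'
  obtain ⟨σ, g, η, hσ, hg, hgn, hA⟩ := exists_frame_data (F := F) l
  obtain ⟨x, hx⟩ := Twist.exists_emb_torus fullF4 injective_torusHom
    (fun y hy => exists_preimage (by rw [← hσ]; exact hy)) hg hgn hσ hA (c := c * c')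
    (fun t => by rw [map_mul, map_mul, hc, hc', mul_pow])
  refine ⟨x, ?_⟩
  rw [← orderOf_injective _ (Twist.emb_injective (K := Omega chevF4 F)), hx]
  refine (MulEquiv.orderOf_eq (MulAut.conj g) _).trans ?_
  rw [map_mul, ((Commute.all c c').map (torusHom chevF4 _)).orderOf_mul_eq_mul_orderOf_of_coprime
    (by rw [ho, ho']; exact (Nat.coprime_primes hr hs).2 hrs), ho, ho']

/-- An element of order `2 s`. -/
theorem exists_orderOf_two [CharP F 2] (l : List (Fin 4)) {e : ℕ} {v : List (List ℤ)}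
    (hB : eigB l e v = true) {al : List ℤ} (hal : fixB l al v = true) {s : ℕ} (hs : s.Prime)
    (hs2 : s ≠ 2) (hsq : ¬ s ∣ Fintype.card F)
    (he : orderOf ((Fintype.card F : ℕ) : ZMod s) = e) :
    ∃ x : chevF4.group F, orderOf x = 2 * s := by
  set Ω := Omega chevF4 F
  haveI : CharP Ω 2 := charP_of_injective_ringHom (algebraMap F Ω).injective 2
  obtain ⟨c, hc, ho, hal1⟩ := exists_twisted l hB hs hsq he
  obtain ⟨σ, g, η, hσ, hg, hgn, hA⟩ := exists_frame_data (F := F) l
  have hfix : ∀ y, σ y = y → ∃ x, algebraMap F Ω x = y :=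
    fun y hy => exists_preimage (by rw [← hσ]; exact hy)
  have hal' := hal
  simp only [fixB, Bool.and_eq_true, List.contains_iff_mem, beq_iff_eq] at hal'
  obtain ⟨a, ha⟩ := exists_col al hal'.1.1
  set w := wPerm fullF4.cert (wl l)
  have hwa : w a = a := by
    have h1 := app_col (mem_wSet_rank fullF4.cert _) (toMat_wordX l) a
    rw [ha, hal'.1.2, ← ha] at h1
    refine crd_ext fullF4 fun i hi => ?_
    have h2 := col_getD (w a) ⟨i, hi⟩
    rw [← h1, col_getD] at h2
    exact h2.symm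
  have hq : 1 < Fintype.card F := Fintype.one_lt_card
  obtain ⟨t, ht⟩ := IsAlgClosed.exists_pow_nat_eq (η a)⁻¹ (Nat.sub_pos_of_lt hq)
  have ht0 : t ≠ 0 := by
    intro h0
    rw [h0, zero_pow (Nat.sub_ne_zero_of_lt hq)] at ht
    exact inv_ne_zero (hA.ne_zero a) ht.symm
  set X := xG fullF4.cert a t
  have hXmem : X ∈ chevF4.group Ω := xG_mem_group fullF4.cert _ _
  have hXc : Commute (torusHom chevF4 Ω c) X := by
    have e := (acts_torus fullF4.cert c).conj a t
    simp only [Equiv.Perm.one_apply, hal1 al hal a ha, Units.val_one, one_mul] at e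
    exact mul_inv_eq_iff_eq_mul.1 e
  have hX2 : orderOf X = 2 := by
    refine orderOf_eq_prime ?_ ?_
    · rw [sq, xG_mul, CharTwo.add_self_eq_zero, xG_zero]
    · intro h1
      exact ht0 (xG_injective fullF4.cert a.isLt (h1.trans (xG_zero fullF4.cert a).symm))
  have hnX : nW fullF4.cert Ω (wl l) * Twist.frobPush chevF4 σ X *
      (nW fullF4.cert Ω (wl l))⁻¹ = X := by
    rw [Twist.frobPush, ReflectionsSpinor.ChevField.push_xG, hA.conj, hwa]
    congr 1
    show η a * σ t = t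
    rw [hσ, ← Nat.sub_add_cancel hq.le, pow_succ, ht, ← mul_assoc,
      mul_inv_cancel₀ (hA.ne_zero a), one_mul]
  have hnT : nW fullF4.cert Ω (wl l) *
      Twist.frobPush chevF4 σ (torusHom chevF4 Ω c) *
      (nW fullF4.cert Ω (wl l))⁻¹ = torusHom chevF4 Ω c := by
    have hσc : Twist.frobPush chevF4 σ (torusHom chevF4 Ω c) =
        torusHom chevF4 Ω (c ^ (Fintype.card F : ℤ)) := by
      rw [Twist.frobPush, ReflectionsSpinor.ChevField.push_torus]
      refine congrArg _ (funext fun k => Units.ext ?_)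
      rw [zpow_natCast]
      exact (hσ _).trans (Units.val_pow_eq_pow_val _ _).symm
    rw [hσc, mul_inv_eq_iff_eq_mul]
    exact Twist.mul_torus_eq hA fun s => by rw [Twist.chi_zpow, hc, zpow_natCast]
  obtain ⟨x, hx⟩ := Twist.exists_emb_eq fullF4 injective_torusHom hfix hg hgn
    (X := X * torusHom chevF4 Ω c)
    (mul_mem hXmem (diagonal_le_group fullF4.cert (torus_mem_diagonal fullF4 c))) (by
      conv_rhs => rw [← hnX, ← hnT]
      rw [map_mul]
      group
      rfl)
  refine ⟨x, ?_⟩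
  rw [← orderOf_injective _ (Twist.emb_injective (K := Ω)), hx]
  refine (MulEquiv.orderOf_eq (MulAut.conj g) _).trans ?_
  rw [hXc.symm.orderOf_mul_eq_mul_orderOf_of_coprime
    (by rw [hX2, ho]; exact (Nat.coprime_primes Nat.prime_two hs).2 (Ne.symm hs2)), hX2, ho]

/-- The adjacent pairs of orders. -/
theorem exists_orderOf_mul {n : ℕ} (hF : Fintype.card F = 2 ^ n) {r s : ℕ} (hr : r.Prime)
    (hs : s.Prime) (hrs : r ≠ s) (hr2 : r ≠ 2) (hs2 : s ≠ 2)
    (h : ∃ c ∈ certs, ∃ v ∈ c.2.2, ∃ v' ∈ c.2.2,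
      orderOf ((Fintype.card F : ℕ) : ZMod r) = v.1 ∧
      orderOf ((Fintype.card F : ℕ) : ZMod s) = v'.1) :
    ∃ x : chevF4.group F, orderOf x = r * s := by
  obtain ⟨c, hc, v, hv, v', hv', h1, h2⟩ := h
  have hnd : ∀ {p : ℕ}, p.Prime → p ≠ 2 → ¬ p ∣ Fintype.card F := fun hp hp2 hd =>
    hp2 ((Nat.prime_dvd_prime_iff_eq hp Nat.prime_two).1 (hp.dvd_of_dvd_pow (hF ▸ hd)))
  exact exists_orderOf_pair c.1 ((certs_ok c hc).1 v hv) ((certs_ok c hc).1 v' hv') hr hs hrs
    (hnd hr hr2) (hnd hs hs2) h1 h2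

theorem exists_orderOf_two_mul {n : ℕ} (hF : Fintype.card F = 2 ^ n) {s : ℕ} (hs : s.Prime)
    (hs2 : s ≠ 2)
    (h : ∃ c ∈ certs, c.2.1 ≠ [] ∧ ∃ v ∈ c.2.2,
      orderOf ((Fintype.card F : ℕ) : ZMod s) = v.1) :
    ∃ x : chevF4.group F, orderOf x = 2 * s := by
  obtain ⟨c, hc, hne, v, hv, h1⟩ := h
  haveI : CharP F 2 := by
    obtain ⟨p, hp⟩ := CharP.exists F
    have hpp : Fact p.Prime := ⟨CharP.char_is_prime F p⟩
    have h0 := FiniteField.cast_card_eq_zero F
    rw [hF, CharP.cast_eq_zero_iff F p] at h0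
    rwa [(Nat.prime_dvd_prime_iff_eq hpp.out Nat.prime_two).1 (hpp.out.dvd_of_dvd_pow h0)] at hp
  exact exists_orderOf_two c.1 ((certs_ok c hc).1 v hv) ((certs_ok c hc).2 hne v hv) hs hs2
    (fun hd => hs2 ((Nat.prime_dvd_prime_iff_eq hs Nat.prime_two).1
      (hs.dvd_of_dvd_pow (hF ▸ hd)))) h1

end Omega

end CfsgLib.Chevalley.F4Prime
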