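import Cfsg.Agent.Lib.Chevalley.F4Prime.Weyl
import Cfsg.Agent.Lib.Chevalley.OrderF4

/-!
Torus elements of F4 whose Weyl twist is the `q`th power: the possible orders of `q` modulo the
orders of such elements, and regularity in the cases of orders eight and twelve.
-/

set_option autoImplicit false
set_option maxRecDepth 100000

namespace CfsgLib.Chevalley.F4Prime

open Cfsg.Lie Homocyclic

/-- The five annihilating identities at an element of a ring. -/
def Cong {R : Type*} [Ring R] (i : Fin 5) (x : R) : Prop :=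
  match i with
  | 0 => x ^ 4 = 1
  | 1 => x ^ 4 + 1 = 0
  | 2 => x ^ 4 + 1 = x ^ 2
  | 3 => x ^ 4 + x ^ 3 = x + 1
  | 4 => x ^ 4 + x = x ^ 3 + 1

/-- The orders allowed by each identity. -/
def ordSet : Fin 5 → Finset ℕ
  | 0 => {1, 2, 4}
  | 1 => {8}
  | 2 => {12}
  | 3 => {1, 2, 3}
  | 4 => {1, 2, 6}

theorem ordSet_top : ∀ i : Fin 5, ∀ a ∈ ordSet i, ∀ b ∈ ordSet i, b = 8 ∨ b = 12 →
    a = b ∧ (i = 1 ∨ i = 2) := by
  decide

theorem ordSet_pairs : ∀ i : Fin 5, ∀ a ∈ ordSet i, ∀ b ∈ ordSet i,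
    (a = 3 → b ≠ 4 ∧ b ≠ 6) ∧ (a = 4 → b ≠ 6) := by
  decide

theorem three_values : ∀ x : ZMod 3, x ≠ 0 → x ^ 4 + 1 ≠ x ^ 2 := by decide

theorem orderOf_mem {r : ℕ} [Fact r.Prime] (hr2 : r ≠ 2) {i : Fin 5} {x : ZMod r} (hx : x ≠ 0)
    (h : Cong i x) : orderOf x ∈ ordSet i := by
  have h2 : (2 : ZMod r) ≠ 0 := by
    intro e
    have : r ∣ 2 := (ZMod.natCast_eq_zero_iff 2 r).1 (by exact_mod_cast e)
    exact hr2 ((Nat.prime_dvd_prime_iff_eq Fact.out Nat.prime_two).1 this)
  fin_cases i <;> simp only [Cong] at h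
  · have hd : orderOf x ∣ 4 := orderOf_dvd_of_pow_eq_one h
    have hle := Nat.le_of_dvd (by norm_num) hd
    show orderOf x ∈ ({1, 2, 4} : Finset ℕ)
    interval_cases hk : orderOf x <;> simp_all <;> omega
  · have h4 : x ^ 4 ≠ 1 := fun e => h2 (by rw [← h, e]; norm_num)
    have h8 : x ^ 8 = 1 := by linear_combination (x ^ 4 - 1) * h
    show orderOf x ∈ ({8} : Finset ℕ)
    rw [Finset.mem_singleton]
    exact orderOf_eq_prime_pow (p := 2) (n := 2) (by simpa using h4) (by simpa using h8)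
  · have h3 : (3 : ZMod r) ≠ 0 := by
      intro e
      have h3' : r ∣ 3 := (ZMod.natCast_eq_zero_iff 3 r).1 (by exact_mod_cast e)
      obtain rfl := (Nat.prime_dvd_prime_iff_eq Fact.out Nat.prime_three).1 h3'
      exact three_values x hx h
    have h12 : x ^ 12 = 1 := by linear_combination (x ^ 8 + x ^ 6 - x ^ 2 - 1) * h
    have h6 : x ^ 6 ≠ 1 := fun e => h2 (by linear_combination (x ^ 2 + 1) * h - e)
    have h4 : x ^ 4 ≠ 1 := fun e => h3 (by
      linear_combination (x ^ 2 + 2) * h - (x ^ 2 + 1) * e)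
    have hd := orderOf_dvd_of_pow_eq_one h12
    have hle := Nat.le_of_dvd (by norm_num) hd
    have e6 : ¬ orderOf x ∣ 6 := fun e => h6 (orderOf_dvd_iff_pow_eq_one.1 e)
    have e4 : ¬ orderOf x ∣ 4 := fun e => h4 (orderOf_dvd_iff_pow_eq_one.1 e)
    show orderOf x ∈ ({12} : Finset ℕ)
    interval_cases hk : orderOf x <;> simp_all <;> omega
  · have h' : (x ^ 2 - 1) * (x ^ 2 + x + 1) = 0 := by linear_combination h
    have : orderOf x ∣ 2 ∨ orderOf x ∣ 3 := by
      rcases mul_eq_zero.1 h' with e | e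
      · exact Or.inl (orderOf_dvd_of_pow_eq_one (by linear_combination e))
      · exact Or.inr (orderOf_dvd_of_pow_eq_one (by linear_combination (x - 1) * e))
    show orderOf x ∈ ({1, 2, 3} : Finset ℕ)
    rcases this with e | e <;> [have := Nat.prime_two; have := Nat.prime_three] <;>
      rcases (Nat.dvd_prime this).1 e with e' | e' <;> simp [e']
  · have h' : (x ^ 2 - 1) * (x ^ 2 - x + 1) = 0 := by linear_combination h
    show orderOf x ∈ ({1, 2, 6} : Finset ℕ)
    rcases mul_eq_zero.1 h' with e | e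
    · rcases (Nat.dvd_prime Nat.prime_two).1
        (orderOf_dvd_of_pow_eq_one (show x ^ 2 = 1 by linear_combination e)) with e' | e' <;> simp [e']
    · have h6 : x ^ 6 = 1 := by linear_combination (x + 1) * (x ^ 3 - 1) * e
      have e3 : ¬ orderOf x ∣ 3 := fun he => h2 (by
        linear_combination (x + 1) * e - (orderOf_dvd_iff_pow_eq_one.1 he))
      have hd := orderOf_dvd_of_pow_eq_one h6
      have hle := Nat.le_of_dvd (by norm_num) hd
      interval_cases hk : orderOf x <;> simp_all <;> omega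

variable {K : Type*} [Field K]

/-- The value at a fundamental root. -/
noncomputable def val4 (c : Fin chevF4.rank → Kˣ) (j : Fin 4) : Kˣ :=
  chi chevF4 (smp fullF4.cert (j : Fin chevF4.rank)) c

theorem chi_val4 (c : Fin chevF4.rank → Kˣ) (s : Fin chevF4.nroots) :
    chi chevF4 s c = ∏ i : Fin 4, val4 c i ^ crd auxF4 i s :=
  chi_eq fullF4 c s

theorem chi_pow {σ : Equiv.Perm (Fin chevF4.nroots)} {q : ℕ} {c : Fin chevF4.rank → Kˣ}
    (hchi : ∀ s : Fin chevF4.nroots, chi chevF4 (σ s) c = chi chevF4 s c ^ q) :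
    ∀ (k : ℕ) (s : Fin chevF4.nroots),
      chi chevF4 ((σ ^ k) s) c = chi chevF4 s c ^ q ^ k := by
  intro k
  induction k with
  | zero => simp
  | succ k ih =>
    intro s
    rw [pow_succ', Equiv.Perm.mul_apply, hchi, ih, ← pow_mul, pow_succ]

theorem prod_val4_pow {σ : Equiv.Perm (Fin chevF4.nroots)}
    (hσ : σ ∈ wSet fullF4.cert chevF4.rank) {q : ℕ} {c : Fin chevF4.rank → Kˣ}
    (hchi : ∀ s : Fin chevF4.nroots, chi chevF4 (σ s) c = chi chevF4 s c ^ q) (k : ℕ) (j : Fin 4) :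
    val4 c j ^ q ^ k = ∏ i : Fin 4, val4 c i ^ (wM σ ^ k) i j := by
  have e : wMat fullF4.cert σ ^ k = wMat fullF4.cert (σ ^ k) := (wMat_pow fullF4 hσ k).symm
  refine (chi_pow hchi k _).symm.trans ((chi_val4 c _).trans ?_)
  refine Finset.prod_congr rfl fun i _ => ?_
  congr 1
  exact (congrFun (congrFun e i) j).symm

theorem pow_sum {σ : Equiv.Perm (Fin chevF4.nroots)}
    (hσ : σ ∈ wSet fullF4.cert chevF4.rank) {q : ℕ} {c : Fin chevF4.rank → Kˣ}
    (hchi : ∀ s : Fin chevF4.nroots, chi chevF4 (σ s) c = chi chevF4 s c ^ q) (L : List ℕ)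
    (j : Fin 4) : val4 c j ^ (L.map (q ^ ·)).sum =
      ∏ i : Fin 4, val4 c i ^ ((L.map (wM σ ^ ·)).sum : Matrix (Fin 4) (Fin 4) ℤ) i j := by
  induction L with
  | nil => simp
  | cons k L ih =>
    simp only [List.map_cons, List.sum_cons, Matrix.add_apply]
    rw [pow_add, prod_val4_pow hσ hchi k j, ih, ← Finset.prod_mul_distrib]
    simp only [_root_.zpow_add]

/-- An element of prime order sees the annihilating identity of the twist. -/
theorem cong_of_value {σ : Equiv.Perm (Fin chevF4.nroots)}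
    (hσ : σ ∈ wSet fullF4.cert chevF4.rank) {q : ℕ} {c : Fin chevF4.rank → Kˣ}
    (hchi : ∀ s : Fin chevF4.nroots, chi chevF4 (σ s) c = chi chevF4 s c ^ q) {r : ℕ}
    (hr : r.Prime) (hc : ∀ j, val4 c j ^ r = 1) {j₀ : Fin 4} (hne : val4 c j₀ ≠ 1) {i : Fin 5}
    (hi : Cong i (wM σ)) : Cong i (q : ZMod r) := by
  have : Fact r.Prime := ⟨hr⟩
  have hord : orderOf (val4 c j₀) = r := orderOf_eq_prime (hc j₀) hne
  have key : ∀ L R : List ℕ,
      (L.map (wM σ ^ ·)).sum = (R.map (wM σ ^ ·)).sum →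
      ((L.map (q ^ ·)).sum : ZMod r) = ((R.map (q ^ ·)).sum : ZMod r) := by
    intro L R e
    rw [ZMod.natCast_eq_natCast_iff, ← hord, ← pow_eq_pow_iff_modEq,
      pow_sum hσ hchi L j₀, pow_sum hσ hchi R j₀, e]
  fin_cases i <;> simp only [Cong] at hi ⊢
  · simpa using key [4] [0] (by simpa using hi)
  · simpa using key [4, 0] [] (by simpa using hi)
  · simpa using key [4, 0] [2] (by simpa using hi)
  · simpa using key [4, 3] [1, 0] (by simpa using hi)
  · simpa using key [4, 1] [3, 0] (by simpa using hi)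

theorem exists_cong {σ : Equiv.Perm (Fin chevF4.nroots)}
    (hσ : σ ∈ wSet fullF4.cert chevF4.rank) : ∃ i : Fin 5, Cong i (wM σ) := by
  rcases ann_cases hσ with h | h | h | h | h
  exacts [⟨0, h⟩, ⟨1, h⟩, ⟨2, h⟩, ⟨3, h⟩, ⟨4, h⟩]

theorem order_mem {σ : Equiv.Perm (Fin chevF4.nroots)}
    (hσ : σ ∈ wSet fullF4.cert chevF4.rank) {q : ℕ} {c : Fin chevF4.rank → Kˣ}
    (hchi : ∀ s : Fin chevF4.nroots, chi chevF4 (σ s) c = chi chevF4 s c ^ q) {r : ℕ}
    (hr : r.Prime) (hr2 : r ≠ 2) (hrq : ¬ r ∣ q) (hc : ∀ j, val4 c j ^ r = 1) {j₀ : Fin 4}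
    (hne : val4 c j₀ ≠ 1) {i : Fin 5} (hi : Cong i (wM σ)) :
    orderOf (q : ZMod r) ∈ ordSet i := by
  have : Fact r.Prime := ⟨hr⟩
  exact orderOf_mem hr2 (by rwa [Ne, ZMod.natCast_eq_zero_iff])
    (cong_of_value hσ hchi hr hc hne hi)

theorem toMat_inj {f g : ℕ → ℕ → ℤ} (e : toMat (mk4 f) = toMat (mk4 g)) : mk4 f = mk4 g := by
  have h : ∀ i j : Fin 4, f i j = g i j := fun i j => by
    have := congrFun (congrFun e i) j
    simpa [toMat, Matrix.of_apply, ent_mk4] using this
  have a := h 0 0; have b := h 0 1; have c := h 0 2; have d := h 0 3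
  have a1 := h 1 0; have b1 := h 1 1; have c1 := h 1 2; have d1 := h 1 3
  have a2 := h 2 0; have b2 := h 2 1; have c2 := h 2 2; have d2 := h 2 3
  have a3 := h 3 0; have b3 := h 3 1; have c3 := h 3 2; have d3 := h 3 3
  simp only [Fin.val_zero, Fin.val_one, Fin.val_two, show ((3 : Fin 4) : ℕ) = 3 from rfl]
    at a b c d a1 b1 c1 d1 a2 b2 c2 d2 a3 b3 c3 d3
  simp only [mk4, a, b, c, d, a1, b1, c1, d1, a2, b2, c2, d2, a3, b3, c3, d3]

theorem eq_one_of_pow_coprime {G : Type*} [Group G] {x : G} {s n : ℕ} (hs : s.Prime) (hs5 : 5 ≤ s)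
    (hx : x ^ s = 1) (hn : n ∈ ([1, 2, 3, 4, 8] : List ℕ)) (h : x ^ n = 1) : x = 1 := by
  have h1 := orderOf_dvd_of_pow_eq_one hx
  have h2 := orderOf_dvd_of_pow_eq_one h
  rcases (Nat.dvd_prime hs).1 h1 with e | e
  · exact orderOf_eq_one_iff.1 e
  · exfalso
    rw [e] at h2
    simp only [List.mem_cons, List.not_mem_nil, or_false] at hn
    rcases hn with rfl | rfl | rfl | rfl | rfl
    · exact absurd (Nat.le_of_dvd (by norm_num) h2) (by omega)
    · exact absurd (Nat.le_of_dvd (by norm_num) h2) (by omega)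
    · exact absurd (Nat.le_of_dvd (by norm_num) h2) (by omega)
    · exact absurd (Nat.le_of_dvd (by norm_num) h2) (by omega)
    · have := (Nat.prime_dvd_prime_iff_eq hs Nat.prime_two).1
        (hs.dvd_of_dvd_pow (show s ∣ 2 ^ 3 by norm_num; exact h2))
      omega

/-- In the cases of orders eight and twelve the element is regular. -/
theorem regular {σ : Equiv.Perm (Fin chevF4.nroots)}
    (hσ : σ ∈ wSet fullF4.cert chevF4.rank) {q : ℕ} {c : Fin chevF4.rank → Kˣ}
    (hchi : ∀ s : Fin chevF4.nroots, chi chevF4 (σ s) c = chi chevF4 s c ^ q) {i : Fin 5}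
    (hi : Cong i (wM σ)) (hi' : i = 1 ∨ i = 2) {p : ℕ} (hp : p.Prime) (hp5 : 5 ≤ p)
    (hc : ∀ j, val4 c j ^ p = 1) {j₀ : Fin 4} (hne : val4 c j₀ ≠ 1) (s : Fin chevF4.nroots) :
    chi chevF4 s c ≠ 1 := by
  intro hs
  obtain ⟨M, e, -, h, -⟩ := exists_checked hσ
  rw [← e] at hi
  have hcond : (addX (mulX (mulX M M) (mulX M M)) idX == mk4 fun _ _ => 0) ||
      (addX (mulX (mulX M M) (mulX M M)) idX == mulX M M) := by
    have p4 : toMat M ^ 4 = toMat (mulX (mulX M M) (mulX M M)) := by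
      rw [toMat_mulX, toMat_mulX, ← sq, ← sq, ← pow_mul]
    have p2 : toMat M ^ 2 = toMat (mulX M M) := by rw [toMat_mulX, sq]
    simp only [Bool.or_eq_true, beq_iff_eq]
    rcases hi' with rfl | rfl <;> simp only [Cong] at hi
    · refine Or.inl (toMat_inj ?_)
      rw [← addX, toMat_addX, toMat_idX, toMat_zero, ← p4]
      exact hi
    · refine Or.inr (toMat_inj ?_)
      rw [← addX, ← mulX, toMat_addX, toMat_idX, ← p4, ← p2]
      exact hi
  simp only [spanB, hcond, if_true, List.all_eq_true, forceV_eq, List.contains_iff_mem] at h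
  have h' := h _ (col_mem s)
  have hM := app_col hσ e
  rw [hM s, hM (σ s), hM (σ (σ s))] at h'
  set a := fun i => (col s).getD i 0 with ha
  set b := fun i => (col (σ s)).getD i 0 with hb
  set u := fun i => (col (σ (σ s))).getD i 0 with hu
  set d := fun i => (col (σ (σ (σ s)))).getD i 0 with hd
  have one : ∀ t : Fin chevF4.nroots, chi chevF4 t c = 1 →
      ∏ i : Fin 4, val4 c i ^ (col t).getD (i : ℕ) 0 = 1 := by
    intro t ht
    rw [chi_val4] at ht
    simpa only [col_getD] using ht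
  have s1 : chi chevF4 (σ s) c = 1 := by rw [hchi, hs, one_pow]
  have s2 : chi chevF4 (σ (σ s)) c = 1 := by rw [hchi, s1, one_pow]
  have s3 : chi chevF4 (σ (σ (σ s))) c = 1 := by rw [hchi, s2, one_pow]
  have hj := fun i : Fin 4 => cramer a b u d i j₀ i.isLt j₀.isLt
  have hdet : val4 c j₀ ^ det4 a b u d = 1 := by
    have e1 : (∏ i : Fin 4, val4 c i ^ a i) ^ det4 (unitV j₀) b u d *
        (∏ i : Fin 4, val4 c i ^ b i) ^ det4 a (unitV j₀) u d *
        (∏ i : Fin 4, val4 c i ^ u i) ^ det4 a b (unitV j₀) d *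
        (∏ i : Fin 4, val4 c i ^ d i) ^ det4 a b u (unitV j₀) = 1 := by
      rw [ha, hb, hu, hd]
      simp only [one _ hs, one _ s1, one _ s2, one _ s3, _root_.one_zpow, mul_one]
    simp only [← Finset.prod_zpow, ← Finset.prod_mul_distrib, ← _root_.zpow_mul,
      ← _root_.zpow_add] at e1
    rw [Finset.prod_eq_single j₀] at e1
    · rw [← e1]
      congr 1
      have := hj j₀
      rw [show unitV (j₀ : ℕ) j₀ = 1 from if_pos rfl, mul_one] at this
      linarith
    · intro i _ hij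
      have := hj i
      rw [show unitV (j₀ : ℕ) i = 0 from if_neg fun h => hij (Fin.ext h), mul_zero] at this
      rw [show a i * det4 (unitV j₀) b u d + b i * det4 a (unitV j₀) u d +
        u i * det4 a b (unitV j₀) d + d i * det4 a b u (unitV j₀) = 0 by linarith, zpow_zero]
    · intro h; exact absurd (Finset.mem_univ _) h
  refine hne (eq_one_of_pow_coprime hp hp5 (hc j₀) (n := (det4 a b u d).natAbs) ?_ ?_)
  · revert h'
    simp only [List.mem_cons, List.not_mem_nil, or_false]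
    tauto
  · rw [← zpow_natCast]
    rcases Int.natAbs_eq (det4 a b u d) with e2 | e2
    · rwa [← e2]
    · rw [e2, _root_.zpow_neg, _root_.inv_eq_one] at hdet
      exact hdet

theorem card_wSet : (wSet fullF4.cert chevF4.rank).card = 1152 := by
  have e := count_eq fullF4 reflTabF4_ok levelsF4_ok 1
  simp only [one_pow, Finset.sum_const, smul_eq_mul, mul_one, Finset.card_univ, Fintype.card_fin] at e
  rw [e]
  decide +kernel

theorem eq_two_or_three {p : ℕ} (hp : p.Prime) (h : p ∣ 1152) : p = 2 ∨ p = 3 := by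
  rcases hp.dvd_mul.1 (show p ∣ 2 ^ 7 * 3 ^ 2 by norm_num; exact h) with h | h
  · exact Or.inl ((Nat.prime_dvd_prime_iff_eq hp Nat.prime_two).1 (hp.dvd_of_dvd_pow h))
  · exact Or.inr ((Nat.prime_dvd_prime_iff_eq hp Nat.prime_three).1 (hp.dvd_of_dvd_pow h))

/-- A regular element of prime order at least five has trivial stabiliser. -/
theorem stab_eq_one {π : Equiv.Perm (Fin chevF4.nroots)}
    (hπ : π ∈ wSet fullF4.cert chevF4.rank) {c : Fin chevF4.rank → Kˣ}
    (hfix : ∀ s : Fin chevF4.nroots, chi chevF4 (π s) c = chi chevF4 s c) {p : ℕ} (hp : p.Prime)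
    (hp5 : 5 ≤ p) (hc : ∀ j, val4 c j ^ p = 1)
    (h1 : ∀ s : Fin chevF4.nroots, chi chevF4 s c ≠ 1) : π = 1 := by
  by_contra hne
  have hm : orderOf π ≠ 1 := fun e => hne (orderOf_eq_one_iff.1 e)
  obtain ⟨ℓ, hℓ, hℓm⟩ := Nat.exists_prime_and_dvd hm
  have h23 : ℓ = 2 ∨ ℓ = 3 := eq_two_or_three hℓ
    ((hℓm.trans (orderOf_dvd_card fullF4 hπ)).trans (dvd_of_eq card_wSet))
  set τ := π ^ (orderOf π / ℓ) with hτ
  have hτo : orderOf τ = ℓ := orderOf_pow_orderOf_div (orderOf_pos π).ne' hℓm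
  have hτW := wSet_pow fullF4 hπ (orderOf π / ℓ)
  rw [← hτ] at hτW
  have hfix' : ∀ s : Fin chevF4.nroots, chi chevF4 (τ s) c = chi chevF4 s c := fun s => by
    simpa using chi_pow (q := 1) (fun t => by rw [pow_one]; exact hfix t) (orderOf π / ℓ) s
  have hpow : wM τ ^ ℓ = 1 := by
    have e : wMat fullF4.cert τ ^ ℓ = 1 := by
      rw [← wMat_pow fullF4 hτW, ← hτo, pow_orderOf_eq_one, wMat_one]
    exact e
  obtain ⟨M, e, -, -, h⟩ := exists_checked hτW
  have hMne : M ≠ idX := by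
    intro hM
    refine hℓ.one_lt.ne' (hτo ▸ orderOf_eq_one_iff.2 ?_)
    obtain ⟨l, -, hl⟩ := mem_wSet.1 hτW
    refine (hl.symm.trans (wPerm_ext fullF4 (l' := []) fun j => ?_)).trans rfl
    refine crd_ext fullF4 fun i hi => ?_
    have e1 : wMat fullF4.cert τ = 1 := by rw [hM, toMat_idX] at e; exact e.symm
    rw [hl]
    exact congrFun (congrFun (e1.trans (wMat_one fullF4.cert).symm) ⟨i, hi⟩) j
  simp only [orbB, beq_iff_eq, hMne, if_false, Bool.and_eq_true] at h
  have hM := app_col hτW e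
  rw [← e] at hpow
  have finish : ∀ (s : Fin chevF4.nroots) (n : ℕ), n ∈ ([1, 2, 3, 4, 8] : List ℕ) →
      chi chevF4 s c ^ n = 1 → False := fun s n hn he => by
    refine h1 s (eq_one_of_pow_coprime hp hp5 ?_ hn he)
    rw [chi_val4, ← Finset.prod_pow]
    refine Finset.prod_eq_one fun i _ => ?_
    rw [← zpow_natCast, ← _root_.zpow_mul, mul_comm, _root_.zpow_mul, zpow_natCast, hc i,
      _root_.one_zpow]
  rcases h23 with rfl | rfl
  · have h2 : mulX M M = idX := toMat_inj (g := fun i j => if i = j then 1 else 0) (by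
      rw [← mulX, toMat_mulX, ← sq, hpow]
      exact toMat_idX.symm)
    rw [h2] at h
    simp only [if_true, List.any_eq_true, forceV_eq, List.all_eq_true, List.mem_range,
      beq_iff_eq] at h
    obtain ⟨a, ha, hsum⟩ := h.1
    obtain ⟨s, rfl⟩ := exists_col a ha
    rw [hM s] at hsum
    refine finish s 2 (by simp) ?_
    rw [sq]
    nth_rw 2 [← hfix' s]
    rw [chi_val4, chi_val4, ← Finset.prod_mul_distrib]
    refine Finset.prod_eq_one fun i _ => ?_
    rw [← _root_.zpow_add, ← col_getD, ← col_getD, hsum i i.isLt, zpow_zero]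
  · have h3 : mulX (mulX M M) M = idX := toMat_inj (g := fun i j => if i = j then 1 else 0) (by
      rw [← mulX, toMat_mulX, toMat_mulX, ← pow_three', hpow]
      exact toMat_idX.symm)
    rw [h3] at h
    simp only [if_true, List.any_eq_true, forceV_eq, List.all_eq_true, List.mem_range,
      beq_iff_eq] at h
    obtain ⟨a, ha, hsum⟩ := h.2
    obtain ⟨s, rfl⟩ := exists_col a ha
    rw [hM s, hM (τ s)] at hsum
    refine finish s 3 (by simp) ?_
    calc chi chevF4 s c ^ 3 =
          chi chevF4 s c * chi chevF4 (τ s) c * chi chevF4 (τ (τ s)) c := by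
            rw [hfix' (τ s), hfix' s, pow_three']
      _ = 1 := ?_
    rw [chi_val4, chi_val4, chi_val4, ← Finset.prod_mul_distrib,
      ← Finset.prod_mul_distrib]
    refine Finset.prod_eq_one fun i _ => ?_
    rw [← _root_.zpow_add, ← _root_.zpow_add, ← col_getD, ← col_getD, ← col_getD, hsum i i.isLt,
      zpow_zero]

end CfsgLib.Chevalley.F4Prime
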