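import Cfsg.Agent.Lib.Chevalley.F4Prime.Cert

/-!
What the certificates say about the Weyl permutations of F4 and the characters of the torus.
-/

set_option autoImplicit false
set_option maxRecDepth 100000
set_option linter.unusedSimpArgs false

namespace CfsgLib.Chevalley.F4Prime

open Cfsg.Lie Homocyclic

theorem ent_mk4 (f : ℕ → ℕ → ℤ) (i j : Fin 4) : ent (mk4 f) i j = f i j := by
  fin_cases i <;> fin_cases j <;> rfl

theorem toMat_mulX (M N : Mx) : toMat (mulX M N) = toMat M * toMat N := by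
  ext i j
  simp only [toMat, Matrix.mul_apply, Matrix.of_apply, Fin.sum_univ_four]
  rw [mulX, ent_mk4]
  rfl

theorem toMat_addX (M N : Mx) : toMat (addX M N) = toMat M + toMat N := by
  ext i j
  show ent (addX M N) i j = ent M i j + ent N i j
  rw [addX, ent_mk4]

theorem toMat_idX : toMat idX = 1 := by
  ext i j
  fin_cases i <;> fin_cases j <;> rfl

theorem toMat_zero : toMat (mk4 fun _ _ => 0) = 0 := by
  ext i j
  fin_cases i <;> fin_cases j <;> rfl

theorem genX_data : ∀ i k j : Fin 4, ent (genX i) k j =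
    (if (k : ℕ) = j then 1 else 0) - chevF4.cartan i (chevF4.simple j) * if i = k then 1 else 0 := by
  decide +kernel

/-- The matrix of a Weyl permutation, indexed by `Fin 4`. -/
noncomputable def wM (σ : Equiv.Perm (Fin chevF4.nroots)) : Matrix (Fin 4) (Fin 4) ℤ :=
  wMat fullF4.cert σ

theorem wMat_gen (i : Fin chevF4.rank) :
    wMat fullF4.cert (rfPerm fullF4.cert i) = toMat (genX (i : ℕ)) := by
  ext k j
  rw [wMat_rf fullF4, crd_simple fullF4.cert k.isLt j.isLt]
  exact (genX_data i k j).symm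

theorem repX_closed (k : Fin 4) : idX ∈ repX k ∧ ∀ L ∈ repX k, ∀ i ≤ (k : ℕ),
    mulX (genX i) L ∈ repX k ∨ ∃ x < (k : ℕ), mulX (genX i) L = mulX L (genX x) := by
  have h := closB_all k
  simp only [closB, Bool.and_eq_true, List.contains_iff_mem, List.all_eq_true, List.mem_range,
    Bool.or_eq_true, List.any_eq_true, beq_iff_eq] at h
  exact ⟨h.1, fun L hL i hi => h.2 L hL i (Nat.lt_succ_of_le hi)⟩

theorem mem_wSet_gen (i : Fin chevF4.rank) :
    rfPerm fullF4.cert i ∈ wSet fullF4.cert chevF4.rank := by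
  simpa [wPerm_cons, show wPerm fullF4.cert [] = 1 from rfl] using mem_wSet_rank fullF4.cert [i]

theorem wMat_word_cons (i : Fin chevF4.rank) (l : List (Fin chevF4.rank)) :
    wM (wPerm fullF4.cert (i :: l)) =
      toMat (genX (i : ℕ)) * wM (wPerm fullF4.cert l) := by
  show wMat fullF4.cert _ = _
  rw [wPerm_cons, wMat_mul fullF4 (mem_wSet_gen i), wMat_gen i]
  rfl

theorem exists_elt : ∀ k ≤ 4, ∀ l : List (Fin chevF4.rank), (∀ i ∈ l, (i : ℕ) < k) →
    ∃ M ∈ eltsX k, toMat M = wM (wPerm fullF4.cert l) := by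
  intro k
  induction k with
  | zero =>
    intro _ l hl
    cases l with
    | nil => exact ⟨idX, List.mem_singleton_self _, by
        rw [toMat_idX, show wPerm fullF4.cert [] = 1 from rfl]; exact (wMat_one fullF4.cert).symm⟩
    | cons i l => exact absurd (hl i (List.mem_cons_self ..)) (by omega)
  | succ k ih =>
    intro hk l hl
    obtain ⟨hid, hcl⟩ := repX_closed ⟨k, by omega⟩
    suffices h : ∃ L ∈ repX k, ∃ v : List (Fin chevF4.rank), (∀ i ∈ v, (i : ℕ) < k) ∧
        wM (wPerm fullF4.cert l) =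
          toMat L * wM (wPerm fullF4.cert v) by
      obtain ⟨L, hL, v, hv, e⟩ := h
      obtain ⟨N, hN, eN⟩ := ih (by omega) v hv
      exact ⟨mulX L N, List.mem_flatMap.2 ⟨L, hL, List.mem_map.2 ⟨N, hN, rfl⟩⟩, by
        rw [toMat_mulX, eN, e]⟩
    induction l with
    | nil =>
      exact ⟨idX, hid, [], fun i hi => absurd hi List.not_mem_nil,
        by rw [toMat_idX]; exact (one_mul _).symm⟩
    | cons i l ihl =>
      obtain ⟨L, hL, v, hv, e⟩ := ihl fun x hx => hl x (List.mem_cons_of_mem _ hx)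
      rcases hcl L hL i (Nat.lt_succ_iff.1 (hl i (List.mem_cons_self ..))) with h | ⟨x, hx, h⟩
      · refine ⟨_, h, v, hv, ?_⟩
        rw [wMat_word_cons, e, toMat_mulX]
        exact (mul_assoc _ _ _).symm
      · refine ⟨L, hL, ⟨x, show x < 4 by omega⟩ :: v, fun y hy => ?_, ?_⟩
        · rcases List.mem_cons.1 hy with rfl | hy
          · exact hx
          · exact hv y hy
        · rw [wMat_word_cons, wMat_word_cons, e]
          have h' := congrArg toMat h
          rw [toMat_mulX, toMat_mulX] at h'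
          exact ((mul_assoc _ _ _).symm.trans (congrArg (· * _) h')).trans (mul_assoc _ _ _)

/-- Everything certified about a Weyl permutation. -/
theorem exists_checked {σ : Equiv.Perm (Fin chevF4.nroots)}
    (hσ : σ ∈ wSet fullF4.cert chevF4.rank) :
    ∃ M : Mx, toMat M = wM σ ∧
      annB M (mulX M M) (mulX (mulX M M) M) (mulX (mulX M M) (mulX M M)) = true ∧
      spanB M (mulX M M) (mulX (mulX M M) (mulX M M)) = true ∧
      orbB M (mulX M M) (mulX (mulX M M) M) = true := by
  obtain ⟨l, hl, rfl⟩ := mem_wSet.1 hσ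
  obtain ⟨M, hM, e⟩ := exists_elt 4 le_rfl l hl
  have h := List.all_eq_true.1 checkB_all M hM
  simp only [checkB, forceX_eq, Bool.and_eq_true] at h
  exact ⟨M, e, h.1.1, h.1.2, h.2⟩

/-- The annihilating identities of a Weyl permutation. -/
theorem ann_cases {σ : Equiv.Perm (Fin chevF4.nroots)}
    (hσ : σ ∈ wSet fullF4.cert chevF4.rank) :
    (wM σ ^ 4 = 1) ∨ (wM σ ^ 4 + 1 = 0) ∨ (wM σ ^ 4 + 1 = wM σ ^ 2) ∨
      (wM σ ^ 4 + wM σ ^ 3 = wM σ + 1) ∨ (wM σ ^ 4 + wM σ = wM σ ^ 3 + 1) := by
  obtain ⟨M, e, h, -, -⟩ := exists_checked hσ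
  have e' : wM σ = toMat M := e.symm
  have p4 : toMat (mulX (mulX M M) (mulX M M)) = toMat M ^ 4 := by
    rw [toMat_mulX, toMat_mulX, ← sq, ← sq, ← pow_mul]
  have p3 : toMat (mulX (mulX M M) M) = toMat M ^ 3 := by
    rw [toMat_mulX, toMat_mulX, pow_succ, sq]
  have p2 : toMat (mulX M M) = toMat M ^ 2 := by
    rw [toMat_mulX, sq]
  simp only [annB, Bool.or_eq_true, beq_iff_eq] at h
  rw [e']
  rcases h with ((((h | h) | h) | h) | h) <;> have h' := congrArg toMat h <;>
    simp only [toMat_addX, toMat_idX, toMat_zero, p4, p3, p2] at h'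
  · exact Or.inl h'
  · exact Or.inr (Or.inl h')
  · exact Or.inr (Or.inr (Or.inl h'))
  · exact Or.inr (Or.inr (Or.inr (Or.inl h')))
  · exact Or.inr (Or.inr (Or.inr (Or.inr h')))

/-- The coordinates of a root. -/
noncomputable def col (s : Fin chevF4.nroots) : List ℤ :=
  [crd auxF4 0 s, crd auxF4 1 s, crd auxF4 2 s, crd auxF4 3 s]

theorem col_mem : ∀ s : Fin chevF4.nroots, col s ∈ rootsX := by
  decide +kernel

theorem exists_col : ∀ a ∈ rootsX, ∃ s : Fin chevF4.nroots, col s = a := by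
  decide +kernel

theorem col_getD (s : Fin chevF4.nroots) (i : Fin 4) : (col s).getD (i : ℕ) 0 = crd auxF4 i s := by
  fin_cases i <;> rfl

/-- A root's image in coordinates. -/
theorem app_col {σ : Equiv.Perm (Fin chevF4.nroots)} (hσ : σ ∈ wSet fullF4.cert chevF4.rank)
    {M : Mx} (hM : toMat M = wM σ) (s : Fin chevF4.nroots) :
    app M (col s) = col (σ s) := by
  obtain ⟨l, -, rfl⟩ := mem_wSet.1 hσ
  have key : ∀ i : Fin 4, crd auxF4 i (wPerm fullF4.cert l s) =
      ent M i 0 * (col s).getD 0 0 + ent M i 1 * (col s).getD 1 0 + ent M i 2 * (col s).getD 2 0 +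
        ent M i 3 * (col s).getD 3 0 := by
    intro i
    rw [wPerm_lin fullF4 l i.isLt s]
    refine (Fin.sum_univ_four (f := fun j : Fin 4 =>
      crd auxF4 j s * crd auxF4 i (wPerm fullF4.cert l (smp fullF4.cert (j : Fin chevF4.rank))))).trans ?_
    have he : ∀ j : Fin 4, crd auxF4 i (wPerm fullF4.cert l (smp fullF4.cert (j : Fin chevF4.rank))) =
        ent M i j := fun j => (congrFun (congrFun hM i) j).symm
    rw [he, he, he, he]
    simp only [col, List.getD_cons_zero, List.getD_cons_succ]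
    show crd auxF4 0 s * ent M i 0 + crd auxF4 1 s * ent M i 1 + crd auxF4 2 s * ent M i 2 +
      crd auxF4 3 s * ent M i 3 = _
    ring
  show [_, _, _, _] = [_, _, _, _]
  rw [show crd auxF4 0 (wPerm fullF4.cert l s) = _ from key 0,
    show crd auxF4 1 (wPerm fullF4.cert l s) = _ from key 1,
    show crd auxF4 2 (wPerm fullF4.cert l s) = _ from key 2,
    show crd auxF4 3 (wPerm fullF4.cert l s) = _ from key 3]
  rfl

end CfsgLib.Chevalley.F4Prime
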